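import Mathlib
import Cfsg.Agent.Phan.Auto
import Cfsg.Agent.Classical.Unitary.SUTwo
import Cfsg.Agent.AutPSL.Outer
import Cfsg.Agent.Classical.Linear.Generation

/-!
# Automorphisms of `SU_2(q)`, `q ≥ 4`, preserving the diagonal torus
-/

set_option autoImplicit false

namespace CfsgLib.Phan

open Cfsg CfsgLib.Unitary Matrix

variable {F : Type*} [Field F] [Fintype F] {q : ℕ} (hF : Fintype.card F = q ^ 2)
include hF

/-- `SU_2(q)` is conjugate in `GL_2(q²)` to `SL_2(q)`. -/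
theorem exists_conj_sl_two :
    ∃ (F₀ : Subfield F) (P : GL (Fin 2) F) (φ : SpecialLinearGroup (Fin 2) F₀ ≃* ↥(SU 2 F q)),
      Nat.card F₀ = q ∧ ∀ x, mat (φ x) = P.1 * x.1.map F₀.subtype * (P⁻¹ : GL (Fin 2) F).1 := by
  classical
  obtain ⟨⟨σ, hσ, hσ2, -⟩, c, d, lam, δ, hδne, hδq, hc, hd, hcd, hlam, hld⟩ :=
    CfsgLib.FreeGroupLaws.exists_hermitian_pair hF
  let F₀ : Subfield F := σ.eqLocusField (RingHom.id F)
  have hmem : ∀ x : F, x ∈ F₀ ↔ x ^ q = x := fun x => by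
    rw [← hσ]; rfl
  haveI : Fintype F₀ := Fintype.ofFinite F₀
  have hK : Fintype.card F₀ = q := by
    rw [← Nat.card_eq_fintype_card, Nat.card_congr (Equiv.subtypeEquivRight hmem),
      CfsgLib.Unitary.card_fixed hF]
  let K := ↥F₀
  let ι : F₀ →+* F := F₀.subtype
  have hι : ∀ x, ι x ^ q = ι x := fun x => (hmem _).1 x.2
  let P : Matrix (Fin 2) (Fin 2) F := !![1, lam; c, lam * d]
  have hP : P.det ≠ 0 := by
    simp only [P, Matrix.det_fin_two_of, one_mul]
    rw [mul_comm lam c, mul_comm c lam, ← mul_sub]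
    exact mul_ne_zero hlam (sub_ne_zero_of_ne (Ne.symm hcd))
  have hld2 : lam * (1 + c ^ q * d) = -δ := by
    have := congrArg σ hld
    rw [← hσ lam, map_mul, hσ2, map_add, map_one, map_mul, ← hσ d, hσ2, hσ c, hσ δ, hδq] at this
    exact this
  have hpair : ∀ x y : Fin 2 → F, (P *ᵥ x) 0 * (P *ᵥ y) 0 ^ q + (P *ᵥ x) 1 * (P *ᵥ y) 1 ^ q =
      δ * (x 0 * y 1 ^ q - x 1 * y 0 ^ q) := by
    intro x y
    simp only [P, Matrix.mulVec, dotProduct, Fin.sum_univ_two, Matrix.of_apply, Matrix.cons_val',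
      Matrix.cons_val_zero, Matrix.cons_val_one, Matrix.cons_val_fin_one]
    rw [← hσ, ← hσ (_ + _), map_add, map_add, map_mul, map_mul, map_mul, map_mul, map_mul,
      map_one, hσ, hσ, hσ, hσ, hσ]
    have hc0 : c * c ^ q = -1 := by rw [← pow_succ', hc]
    have hd0 : d * d ^ q = -1 := by rw [← pow_succ', hd]
    linear_combination (x 0 * y 0 ^ q) * hc0 + (x 0 * y 1 ^ q) * hld + (x 1 * y 0 ^ q) * hld2 +
      (x 1 * y 1 ^ q * lam * lam ^ q) * hd0
  let Pgl : GL (Fin 2) F := Matrix.GeneralLinearGroup.mkOfDetNeZero P hP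
  let φ : SpecialLinearGroup (Fin 2) F₀ →* Matrix (Fin 2) (Fin 2) F :=
    (Units.coeHom _).comp ((MulAut.conj Pgl).toMonoidHom.comp
      (SpecialLinearGroup.toGL.comp (SpecialLinearGroup.map ι)))
  have hdet : ∀ A, (φ A).det = 1 := by
    intro A
    simp only [φ, MonoidHom.comp_apply, Units.coeHom_apply, MulEquiv.coe_toMonoidHom,
      MulAut.conj_apply, Units.val_mul]
    rw [Matrix.det_units_conj]
    exact (SpecialLinearGroup.map ι A).2
  let φ' : SpecialLinearGroup (Fin 2) F₀ →* SpecialLinearGroup (Fin 2) F :=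
    { toFun := fun A => ⟨φ A, hdet A⟩
      map_one' := Subtype.ext (map_one φ)
      map_mul' := fun A B => Subtype.ext (map_mul φ A B) }
  have hpres : ∀ A u v, (φ A *ᵥ u) 0 * (φ A *ᵥ v) 0 ^ q + (φ A *ᵥ u) 1 * (φ A *ᵥ v) 1 ^ q =
      u 0 * v 0 ^ q + u 1 * v 1 ^ q := by
    intro A u v
    set M : Matrix (Fin 2) (Fin 2) F := (A : Matrix (Fin 2) (Fin 2) F₀).map ι with hM
    set Q : Matrix (Fin 2) (Fin 2) F := ((Pgl⁻¹ : GL (Fin 2) F) : Matrix (Fin 2) (Fin 2) F) with hQ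
    have hPQ : P * Q = 1 := Pgl.mul_inv
    have happ : ∀ u, φ A *ᵥ u = P *ᵥ (M *ᵥ (Q *ᵥ u)) := by
      intro u
      rw [Matrix.mulVec_mulVec, Matrix.mulVec_mulVec]
      rfl
    have hu : u = P *ᵥ (Q *ᵥ u) := by rw [Matrix.mulVec_mulVec, hPQ, Matrix.one_mulVec]
    have hv : v = P *ᵥ (Q *ᵥ v) := by rw [Matrix.mulVec_mulVec, hPQ, Matrix.one_mulVec]
    rw [happ, happ, hpair]
    conv_rhs => rw [hu, hv, hpair]
    generalize Q *ᵥ u = x
    generalize Q *ᵥ v = y
    have hMq : ∀ i j, M i j ^ q = M i j := fun i j => hι _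
    have hdM : M 0 0 * M 1 1 - M 0 1 * M 1 0 = 1 := by
      rw [← Matrix.det_fin_two]
      exact (SpecialLinearGroup.map ι A).2
    simp only [Matrix.mulVec, dotProduct, Fin.sum_univ_two]
    rw [← hσ, ← hσ (M 0 0 * y 0 + M 0 1 * y 1), map_add, map_add, map_mul, map_mul, map_mul,
      map_mul, hσ, hσ, hσ, hσ, hσ, hσ, hMq, hMq, hMq, hMq]
    linear_combination (δ * (x 0 * y 1 ^ q - x 1 * y 0 ^ q)) * hdM
  let f : SpecialLinearGroup (Fin 2) F₀ →* ↥(SU 2 F q) := φ'.codRestrict _ fun A => mem_SU.2 fun u v => by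
    change Cfsg.hermForm 2 F q (φ A *ᵥ u) (φ A *ᵥ v) = _
    simp only [Cfsg.hermForm, Fin.sum_univ_two]
    exact hpres A u v
  have hf : Function.Injective f := fun A B h => by
    have h2 : (φ' A : Matrix (Fin 2) (Fin 2) F) = (φ' B : Matrix (Fin 2) (Fin 2) F) :=
      congrArg Subtype.val (congrArg Subtype.val h)
    have h3 : (MulAut.conj Pgl) (SpecialLinearGroup.toGL (SpecialLinearGroup.map ι A)) =
        (MulAut.conj Pgl) (SpecialLinearGroup.toGL (SpecialLinearGroup.map ι B)) := Units.ext h2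
    have h4 := congrArg (fun x : GL (Fin 2) F => (x : Matrix (Fin 2) (Fin 2) F))
      ((MulAut.conj Pgl).injective h3)
    exact Subtype.ext (Matrix.map_injective ι.injective h4)
  obtain ⟨e⟩ := CfsgLib.UnitaryTwo.su_two_equiv_sl_two (K := F₀) hF hK
  refine ⟨F₀, Pgl, MulEquiv.ofBijective f ((Nat.bijective_iff_injective_and_card _).2
    ⟨hf, (Nat.card_congr e.toEquiv).symm⟩), by rw [Nat.card_eq_fintype_card, hK], fun x => rfl⟩

/-- Every automorphism of `SU_2(q)`, `q ≥ 4`, is semilinear. -/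
theorem exists_semilinear_two (hq : 4 ≤ q) (α : ↥(SU 2 F q) →* ↥(SU 2 F q)) (hα : Function.Injective α) :
    ∃ (M : GL (Fin 2) F) (σ : F ≃+* F), ∀ u, mat (α u) * M.1 = M.1 * (mat u).map σ := by
  classical
  obtain ⟨F₀, P, φ, hcard, hφ⟩ := exists_conj_sl_two hF
  haveI : Fintype F₀ := Fintype.ofFinite F₀
  let αe := MulEquiv.ofBijective α (Finite.injective_iff_bijective.1 hα)
  let α' : MulAut (SpecialLinearGroup (Fin 2) F₀) := (φ.trans αe).trans φ.symm
  obtain ⟨g, σ₀, hβ⟩ := CfsgLib.AutPSL.exists_decomposition_two (CfsgLib.AutPSL.toQuotCenter α')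
  let γ : MulAut (SpecialLinearGroup (Fin 2) F₀) := CfsgLib.AutPSL.conjSL g * CfsgLib.AutPSL.mapSL σ₀
  have hperf : commutator (SpecialLinearGroup (Fin 2) F₀) = ⊤ :=
    CfsgLib.Classical.Linear.commutator_sl_fin_eq_top 2 fun _ =>
      CfsgLib.Classical.Linear.exists_sq_ne_one_of_four_le (by rw [hcard]; exact hq)
  have hγ : ∀ x, α' x = γ x := by
    let χ : SpecialLinearGroup (Fin 2) F₀ →* SpecialLinearGroup (Fin 2) F₀ ⧸
        Subgroup.center (SpecialLinearGroup (Fin 2) F₀) := QuotientGroup.mk' _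
    have hmod : ∀ x, (γ x)⁻¹ * α' x ∈ Subgroup.center (SpecialLinearGroup (Fin 2) F₀) := fun x => by
      rw [← QuotientGroup.eq]
      exact ((CfsgLib.AutPSL.toQuotCenter_mk α' x).symm.trans
        (congrArg (fun b : MulAut _ => b (QuotientGroup.mk x)) hβ)).symm
    let f : SpecialLinearGroup (Fin 2) F₀ →* SpecialLinearGroup (Fin 2) F₀ :=
      MonoidHom.mk' (fun x => (γ x)⁻¹ * α' x) fun a b => by
        rw [map_mul, map_mul, _root_.mul_inv_rev]
        have h := Subgroup.mem_center_iff.1 (hmod a) (γ b)⁻¹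
        calc (γ b)⁻¹ * (γ a)⁻¹ * (α' a * α' b) = ((γ b)⁻¹ * ((γ a)⁻¹ * α' a)) * α' b := by group
          _ = _ := by rw [h]; group
    have hk : commutator (SpecialLinearGroup (Fin 2) F₀) ≤ f.ker := by
      rw [commutator_def, Subgroup.commutator_le]
      intro a _ b _
      rw [MonoidHom.mem_ker, map_commutatorElement, commutatorElement_eq_one_iff_mul_comm]
      exact ((Subgroup.mem_center_iff.1 (hmod a)) (f b)).symm
    intro x
    have hx : x ∈ f.ker := hk (hperf ▸ Subgroup.mem_top x)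
    exact (inv_mul_eq_one.1 hx).symm
  -- extend the field automorphism
  obtain ⟨p, hp⟩ := CharP.exists F
  obtain ⟨f, hpp, -⟩ := FiniteField.card F p
  have := Fact.mk hpp
  haveI : CharP F₀ p := (RingHom.charP_iff F₀.subtype F₀.subtype.injective p).2 hp
  letI : Algebra (ZMod p) F := ZMod.algebra _ _
  letI : Algebra (ZMod p) F₀ := ZMod.algebra _ _
  haveI : @IsScalarTower (ZMod p) F₀ F Algebra.toSMul Algebra.toSMul Algebra.toSMul := IsScalarTower.of_algebraMap_eq' (Subsingleton.elim _ _)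
  let σa : F₀ ≃ₐ[ZMod p] F₀ := AlgEquiv.ofRingEquiv (f := σ₀) fun x =>
    RingHom.congr_fun (Subsingleton.elim ((σ₀ : F₀ →+* F₀).comp (algebraMap (ZMod p) F₀))
      (algebraMap (ZMod p) F₀)) x
  let σ : F ≃+* F := (σa.liftNormal F).toRingEquiv
  have hσ : ∀ x : F₀, σ (F₀.subtype x) = F₀.subtype (σ₀ x) := fun x => σa.liftNormal_commutes F x
  let g' : GL (Fin 2) F := Matrix.GeneralLinearGroup.map F₀.subtype g
  let P' : GL (Fin 2) F := Matrix.GeneralLinearGroup.map (σ : F →+* F) P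
  refine ⟨P * g' * P'⁻¹, σ, fun u => ?_⟩
  obtain ⟨x, rfl⟩ := φ.surjective u
  have h1 : α (φ x) = φ (γ x) := by
    rw [← hγ]; exact (φ.apply_symm_apply _).symm
  have h2 : (γ x).1.map F₀.subtype = g'.1 * (x.1.map F₀.subtype).map σ * (g'⁻¹ : GL (Fin 2) F).1 := by
    show (CfsgLib.AutPSL.conjSL g (CfsgLib.AutPSL.mapSL σ₀ x)).1.map F₀.subtype = _
    rw [CfsgLib.AutPSL.coe_conjSL, CfsgLib.AutPSL.coe_mapSL, Matrix.map_mul, Matrix.map_mul, ← map_inv,
      Matrix.map_map, Matrix.map_map, show F₀.subtype ∘ σ₀ = σ ∘ F₀.subtype from funext fun y => (hσ y).symm]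
    rfl
  have h3 : (mat (φ x)).map σ = P'.1 * (x.1.map F₀.subtype).map σ * (P'⁻¹ : GL (Fin 2) F).1 := by
    rw [hφ, Matrix.map_mul, Matrix.map_mul, ← map_inv]
    rfl
  rw [h1, hφ, h2, h3]
  simp only [Units.val_mul, Matrix.mul_assoc]
  congr 2
  rw [← Matrix.mul_assoc (P⁻¹ : GL (Fin 2) F).1 P.1, Units.inv_mul, Matrix.one_mul]
  rw [← Matrix.mul_assoc (g'⁻¹ : GL (Fin 2) F).1 g'.1, Units.inv_mul, Matrix.one_mul]
  rw [← Matrix.mul_assoc (P'⁻¹ : GL (Fin 2) F).1 P'.1, Units.inv_mul, Matrix.one_mul]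

/-- A semilinear automorphism of `SU_2(q)` preserving the torus is a twist. -/
theorem exists_twist_two (hq : 4 ≤ q) (α : ↥(SU 2 F q) →* ↥(SU 2 F q)) (hα : Function.Injective α)
    (hd : ∀ a, ∃ b, α (diag2 hF a) = diag2 hF b) :
    ∃ (d : Fin 2 → {x : F // x ^ (q + 1) = 1}) (σ : F ≃+* F), ∀ u, α u = twist hF d σ u := by
  obtain ⟨M, σ, hM⟩ := exists_semilinear_two hF hq α hα
  have hdet : M.1.det ≠ 0 := (Matrix.isUnits_det_units M).ne_zero
  rw [Matrix.det_fin_two] at hdet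
  obtain ⟨t, ht, ht2⟩ := exists_norm_one_ne_inv hF
  obtain ⟨b, hb⟩ := hd ⟨t, ht⟩
  have hD := hM (diag2 hF ⟨t, ht⟩)
  rw [hb, mat_diag2, mat_diag2] at hD
  have e00 : b.1 * M.1 0 0 = M.1 0 0 * σ t := by simpa [Matrix.mul_apply, Fin.sum_univ_two] using congrFun (congrFun hD 0) 0
  have e01 : b.1 * M.1 0 1 = M.1 0 1 * σ (t ^ q) := by simpa [Matrix.mul_apply, Fin.sum_univ_two] using congrFun (congrFun hD 0) 1
  have e10 : b.1 ^ q * M.1 1 0 = M.1 1 0 * σ t := by simpa [Matrix.mul_apply, Fin.sum_univ_two] using congrFun (congrFun hD 1) 0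
  have e11 : b.1 ^ q * M.1 1 1 = M.1 1 1 * σ (t ^ q) := by simpa [Matrix.mul_apply, Fin.sum_univ_two] using congrFun (congrFun hD 1) 1
  have htq : σ (t ^ q) ≠ σ t := fun h => ht2 (by
    have h' := σ.injective h
    rw [pow_succ, h'] at ht
    rwa [sq])
  have hent : ∀ u, mat (α u) 1 0 = -(mat (α u) 0 1) ^ q ∧ mat (α u) 1 1 = (mat (α u) 0 0) ^ q ∧
      (mat (α u) 0 0) ^ (q + 1) + (mat (α u) 0 1) ^ (q + 1) = 1 := fun u => su_two_entries hF (α u)
  have h1 : mat (anti2 hF oneN) = !![0, 1; -(1 : F) ^ q, 0] := mat_anti2 hF _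
  by_cases hM0 : M.1 0 0 = 0
  · -- antidiagonal
    have hM01 : M.1 0 1 ≠ 0 := fun h => hdet (by rw [hM0, h]; ring)
    have hM10 : M.1 1 0 ≠ 0 := fun h => hdet (by rw [hM0, h]; ring)
    have hb1 : b.1 = σ (t ^ q) := mul_right_cancel₀ hM01 (e01.trans (mul_comm _ _))
    have hM11 : M.1 1 1 = 0 := by
      by_contra h
      exact htq ((mul_right_cancel₀ h (e11.trans (mul_comm _ _))).symm.trans
        (mul_right_cancel₀ hM10 (e10.trans (mul_comm _ _))))
    have key : ∀ u, mat (α u) 0 0 = σ (mat u 0 0) ^ q ∧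
        mat (α u) 0 1 * M.1 1 0 = -(M.1 0 1 * σ (mat u 0 1) ^ q) := fun u => by
      have h := hM u
      have a := congrFun (congrFun h 0) 1
      have b := congrFun (congrFun h 0) 0
      simp [Matrix.mul_apply, Fin.sum_univ_two, hM0, hM11, (su_two_entries hF u).1, (su_two_entries hF u).2.1] at a b
      exact ⟨mul_right_cancel₀ hM01 (by linear_combination a), by linear_combination b⟩
    have hk := key (anti2 hF oneN)
    set B := mat (α (anti2 hF oneN)) 0 1 with hB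
    have hBN : B ^ (q + 1) = 1 := by
      have := (hent (anti2 hF oneN)).2.2
      rwa [hk.1, h1, show (!![(0 : F), 1; -(1 : F) ^ q, 0]) 0 0 = 0 from rfl, map_zero, zero_pow_q hF,
        zero_pow (Nat.succ_ne_zero q), zero_add] at this
    refine ⟨![⟨B, hBN⟩, oneN], (conjEquiv hF).trans σ, fun u => su_two_ext hF ?_ ?_⟩
    · rw [mat_twist_apply, (key u).1]
      show _ = B * σ (mat u 0 0 ^ q) * B ^ q
      rw [map_pow]
      linear_combination (-(σ (mat u 0 0) ^ q)) * hBN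
    · rw [mat_twist_apply]
      show _ = B * σ (mat u 0 1 ^ q) * (1 : F) ^ q
      rw [one_pow, mul_one, map_pow]
      have h2 : B * M.1 1 0 = -(M.1 0 1) := by
        have := hk.2
        rw [h1, show (!![(0 : F), 1; -(1 : F) ^ q, 0]) 0 1 = 1 from rfl, map_one, one_pow, mul_one] at this
        exact this
      refine mul_right_cancel₀ hM10 ?_
      linear_combination (key u).2 - σ (mat u 0 1) ^ q * h2
  · -- diagonal
    have hb1 : b.1 = σ t := mul_right_cancel₀ hM0 (e00.trans (mul_comm _ _))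
    have hM01 : M.1 0 1 = 0 := by
      by_contra h
      exact htq ((mul_right_cancel₀ h (e01.trans (mul_comm _ _))).symm.trans hb1)
    have hM11 : M.1 1 1 ≠ 0 := fun h => hdet (by rw [hM01, h]; ring)
    have hM10 : M.1 1 0 = 0 := by
      by_contra h
      exact htq ((mul_right_cancel₀ hM11 (e11.trans (mul_comm _ _))).symm.trans
        (mul_right_cancel₀ h (e10.trans (mul_comm _ _))))
    have key : ∀ u, mat (α u) 0 0 = σ (mat u 0 0) ∧
        mat (α u) 0 1 * M.1 1 1 = M.1 0 0 * σ (mat u 0 1) := fun u => by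
      have h := hM u
      have a := congrFun (congrFun h 0) 0
      have b := congrFun (congrFun h 0) 1
      simp [Matrix.mul_apply, Fin.sum_univ_two, hM01, hM10] at a b
      exact ⟨mul_right_cancel₀ hM0 (by linear_combination a), by linear_combination b⟩
    have hk := key (anti2 hF oneN)
    set B := mat (α (anti2 hF oneN)) 0 1 with hB
    have hBN : B ^ (q + 1) = 1 := by
      have := (hent (anti2 hF oneN)).2.2
      rwa [hk.1, h1, show (!![(0 : F), 1; -(1 : F) ^ q, 0]) 0 0 = 0 from rfl, map_zero,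
        zero_pow (Nat.succ_ne_zero q), zero_add] at this
    refine ⟨![⟨B, hBN⟩, oneN], σ, fun u => su_two_ext hF ?_ ?_⟩
    · rw [mat_twist_apply, (key u).1]
      show _ = B * σ (mat u 0 0) * B ^ q
      linear_combination (-σ (mat u 0 0)) * hBN
    · rw [mat_twist_apply]
      show _ = B * σ (mat u 0 1) * (1 : F) ^ q
      rw [one_pow, mul_one]
      have h2 : B * M.1 1 1 = M.1 0 0 := by
        have := hk.2
        rw [h1, show (!![(0 : F), 1; -(1 : F) ^ q, 0]) 0 1 = 1 from rfl, map_one, mul_one] at this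
        exact this
      refine mul_right_cancel₀ hM11 ?_
      linear_combination (key u).2 - σ (mat u 0 1) * h2

end CfsgLib.Phan
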