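import Mathlib
import Cfsg.Agent.Phan.Contract

/-!
# The covering of the orthogonality graph of unit vectors in dimension four

The elementary properties of the covering of `Phan.Cover` in dimension four.
-/

set_option autoImplicit false

namespace CfsgLib.Phan

open Cfsg CfsgLib.Unitary

variable {F : Type*} [Field F] [Fintype F] {q : ℕ}

local notation "⟪" u ", " v "⟫" => hermForm 4 F q u v

namespace Four

open Amalgam (bh P P_norm gA_fst gB_fst gB_inter mem_gA_of mem_gB_of)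

variable {G : Type*} [Group G] (D : Amalgam 4 F q G) (hF : Fintype.card F = q ^ 2)
include hF

/-- `SU_m` moves three orthonormal vectors to any three others. -/
theorem exists_map_three {u v w u' v' w' : Fin 4 → F} (hu : ⟪u, u⟫ = 1) (hv : ⟪v, v⟫ = 1) (hw : ⟪w, w⟫ = 1)
    (huv : ⟪u, v⟫ = 0) (huw : ⟪u, w⟫ = 0) (hvw : ⟪v, w⟫ = 0) (hu' : ⟪u', u'⟫ = 1) (hv' : ⟪v', v'⟫ = 1)
    (hw' : ⟪w', w'⟫ = 1) (huv' : ⟪u', v'⟫ = 0) (huw' : ⟪u', w'⟫ = 0) (hvw' : ⟪v', w'⟫ = 0) :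
    ∃ g : ↥(SU 4 F q), sv g u = u' ∧ sv g v = v' ∧ sv g w = w' := by
  obtain ⟨g, hg⟩ := exists_SU_map_orthonorm hF (orthonorm_three hF hu hv hw huv huw hvw)
    (orthonorm_three hF hu' hv' hw' huv' huw' hvw') (by omega)
  exact ⟨g, hg 0, hg 1, hg 2⟩

theorem exists_map_two {u v u' v' : Fin 4 → F} (hu : ⟪u, u⟫ = 1) (hv : ⟪v, v⟫ = 1)
    (huv : ⟪u, v⟫ = 0) (hu' : ⟪u', u'⟫ = 1) (hv' : ⟪v', v'⟫ = 1) (huv' : ⟪u', v'⟫ = 0) :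
    ∃ g : ↥(SU 4 F q), sv g u = u' ∧ sv g v = v' := by
  obtain ⟨g, hg⟩ := exists_SU_map_orthonorm hF (orthonorm_two hF hu hv huv)
    (orthonorm_two hF hu' hv' huv') (by omega)
  exact ⟨g, hg 0, hg 1⟩

theorem exists_adj (γ : ↥(SU 4 F q) × G) {w : Fin 4 → F} (hw : ⟪w, w⟫ = 1) (hγw : ⟪D.P γ, w⟫ = 0) :
    ∃ a ∈ D.gA, D.Adj γ (γ * a * D.bh) ∧ D.P (γ * a * D.bh) = w := by
  have hu : ⟪D.eL, sv γ.1⁻¹ w⟫ = 0 := by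
    rw [← sv_herm γ.1, sv_sv_inv]; exact hγw
  obtain ⟨g, hg1, hg2⟩ := exists_map_two hF D.hL (D.βL_unit hF) (herm_eq_zero_comm hF D.hβL) D.hL
    (v' := sv γ.1⁻¹ w) (by rw [sv_herm, hw]) hu
  refine ⟨_, D.mem_gA_of hg1, ⟨_, D.mem_gA_of hg1, 1, D.gA.one_mem, (mul_one _).symm⟩, ?_⟩
  rw [Amalgam.Adj.P_eq D D.gA.one_mem (mul_one _).symm, hg2, sv_sv_inv]

theorem Adj.symm {γ δ : ↥(SU 4 F q) × G} (h : D.Adj γ δ) : D.Adj δ γ := by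
  obtain ⟨a, ha, x, hx, rfl⟩ := h
  have hbi : sv D.β⁻¹ D.e0 = D.e0 := sv_inv_eq (mem_stab.1 D.hβ)
  obtain ⟨g, hg0, hgL, hg1⟩ := exists_map_three hF D.h0 D.hL (D.βL_unit hF) D.h0L (D.βL_e0 hF)
    (herm_eq_zero_comm hF D.hβL) D.h0 D.hL (w' := sv D.β⁻¹ D.eL) (by rw [sv_herm, D.hL]) D.h0L
    (by rw [← sv_herm D.β, mem_stab.1 D.hβ, sv_sv_inv, D.h0L])
    (by rw [← sv_herm D.β, sv_sv_inv]; exact D.hβL)
  set y := D.β⁻¹ * g⁻¹ * D.β⁻¹ with hy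
  have hy0 : y ∈ stab D.e0 :=
    (stab D.e0).mul_mem ((stab D.e0).mul_mem ((stab D.e0).inv_mem D.hβ) ((stab D.e0).inv_mem hg0))
      ((stab D.e0).inv_mem D.hβ)
  have hyL : y ∈ stab D.eL := by
    rw [mem_stab, hy, sv_mul, sv_mul, sv_inv_eq hg1, sv_inv_sv]
  have key : D.bh⁻¹ = (g, D.A ⟨g, hgL⟩) * D.bh * (y, D.A ⟨y, hyL⟩) := by
    rw [D.agree g hgL hg0, D.agree y hyL hy0]
    have h1 : (⟨y, hy0⟩ : ↥(stab (q := q) D.e0)) = ⟨D.β, D.hβ⟩⁻¹ * ⟨g, hg0⟩⁻¹ * ⟨D.β, D.hβ⟩⁻¹ :=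
      Subtype.ext rfl
    rw [h1, map_mul, map_mul, map_inv, map_inv]
    exact Prod.ext (by simp [bh, hy, mul_assoc]) (by simp [bh, mul_assoc])
  refine ⟨x⁻¹ * (g, D.A ⟨g, hgL⟩), D.gA.mul_mem (D.gA.inv_mem hx) (D.mem_gA_of hgL),
    (y, D.A ⟨y, hyL⟩) * a⁻¹, D.gA.mul_mem (D.mem_gA_of hyL) (D.gA.inv_mem ha), ?_⟩
  calc γ = γ * a * D.bh * x * x⁻¹ * D.bh⁻¹ * a⁻¹ := by simp [mul_assoc]
    _ = _ := by rw [key]; simp [mul_assoc]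

/-- The cosets reached from `η` inside the graph of `B`. -/
def InB (η γ : ↥(SU 4 F q) × G) : Prop := ∃ b ∈ D.gB, D.Sim (η * b) γ

omit hF in
theorem InB.of_sim {η γ : ↥(SU 4 F q) × G} (h : D.Sim η γ) : D.InB η γ :=
  ⟨1, D.gB.one_mem, by rwa [mul_one]⟩

theorem InB.step {η γ δ : ↥(SU 4 F q) × G} (h : D.InB η γ) (ha : D.Adj γ δ)
    (hu : ⟪D.P δ, sv η.1 D.e0⟫ = 0) : D.InB η δ := by
  obtain ⟨b, hb, hs⟩ := h
  have ha' := Amalgam.Adj.congr_left D ha (Amalgam.Sim.symm D hs)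
  set γ' := η * b with hγ'
  have hb0 : sv γ'.1 D.e0 = sv η.1 D.e0 := by
    rw [hγ', Prod.fst_mul, sv_mul, mem_stab.1 (D.gB_fst hb)]
  obtain ⟨g, hg0, hgL, hg1⟩ := exists_map_three hF D.h0 D.hL (D.βL_unit hF) D.h0L (D.βL_e0 hF)
    (herm_eq_zero_comm hF D.hβL) D.h0 D.hL (w' := sv γ'.1⁻¹ (D.P δ)) (by rw [sv_herm, P_norm]) D.h0L
    (by rw [← sv_herm γ'.1, sv_sv_inv, hb0]; exact herm_eq_zero_comm hF hu)
    (by rw [← sv_herm γ'.1, sv_sv_inv]; exact Amalgam.Adj.orth D hF ha')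
  have hgA := D.mem_gA_of hgL
  have hgB : (g, D.A ⟨g, hgL⟩) ∈ D.gB := by rw [D.agree g hgL hg0]; exact D.mem_gB_of hg0
  refine ⟨b * (g, D.A ⟨g, hgL⟩) * D.bh, D.gB.mul_mem (D.gB.mul_mem hb hgB) D.bh_mem, ?_⟩
  rw [show η * (b * (g, D.A ⟨g, hgL⟩) * D.bh) = γ' * (g, D.A ⟨g, hgL⟩) * D.bh by simp [hγ', mul_assoc]]
  refine D.star ⟨_, hgA, 1, D.gA.one_mem, (mul_one _).symm⟩ ha' ?_
  rw [Amalgam.Adj.P_eq D D.gA.one_mem (mul_one _).symm, hg1, sv_sv_inv]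

omit hF in
theorem InB.sim {η γ : ↥(SU 4 F q) × G} (h : D.InB η γ) (he : D.P γ = D.P η) : D.Sim η γ := by
  obtain ⟨b, hb, hs⟩ := h
  refine Amalgam.Sim.trans D ?_ hs
  have h1 := (Amalgam.Sim.P_eq D hs).trans he
  simp only [P, Prod.fst_mul, sv_mul] at h1
  have h2 := congrArg (sv η.1⁻¹) h1
  rw [sv_inv_sv, sv_inv_sv] at h2
  show η⁻¹ * (η * b) ∈ D.gA
  rw [inv_mul_cancel_left]
  exact D.gB_inter hb h2

theorem exists_base (γ : ↥(SU 4 F q) × G) {u : Fin 4 → F} (hu : ⟪u, u⟫ = 1) (hγu : ⟪u, D.P γ⟫ = 0) :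
    ∃ η, D.Sim γ η ∧ sv η.1 D.e0 = u := by
  obtain ⟨g, hg0, hgL⟩ := exists_map_two hF D.h0 D.hL D.h0L
    (u' := sv γ.1⁻¹ u) (by rw [sv_herm, hu]) D.hL (by rw [← sv_herm γ.1, sv_sv_inv]; exact hγu)
  refine ⟨γ * (g, D.A ⟨g, hgL⟩), ?_, ?_⟩
  · show γ⁻¹ * (γ * _) ∈ D.gA
    rw [inv_mul_cancel_left]; exact D.mem_gA_of hgL
  · rw [Prod.fst_mul, sv_mul, hg0, sv_sv_inv]

/-- A walk of length four with a common orthogonal unit vector is closed as soon as its vertices are. -/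
theorem closed_four {g₀ g₁ g₂ g₃ g₄ : ↥(SU 4 F q) × G} (h₁ : D.Adj g₀ g₁) (h₂ : D.Adj g₁ g₂)
    (h₃ : D.Adj g₂ g₃) (h₄ : D.Adj g₃ g₄) (he : D.P g₄ = D.P g₀) {u : Fin 4 → F} (hu : ⟪u, u⟫ = 1)
    (u₀ : ⟪u, D.P g₀⟫ = 0) (u₁ : ⟪u, D.P g₁⟫ = 0) (u₂ : ⟪u, D.P g₂⟫ = 0) (u₃ : ⟪u, D.P g₃⟫ = 0) :
    D.Sim g₀ g₄ := by
  obtain ⟨η, hη, hηu⟩ := exists_base D hF g₀ hu u₀
  have hc : ∀ {g : ↥(SU 4 F q) × G}, ⟪u, D.P g⟫ = 0 → ⟪D.P g, sv η.1 D.e0⟫ = 0 :=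
    fun h => by rw [hηu]; exact herm_eq_zero_comm hF h
  have i1 := InB.step D hF (InB.of_sim D (Amalgam.Sim.symm D hη)) h₁ (hc u₁)
  have i4 := InB.step D hF (InB.step D hF (InB.step D hF i1 h₂ (hc u₂)) h₃ (hc u₃)) h₄
    (hc (by rw [he]; exact u₀))
  exact Amalgam.Sim.trans D hη (InB.sim D i4 (he.trans (Amalgam.Sim.P_eq D hη)))

theorem triangle {γ δ ε : ↥(SU 4 F q) × G} (h : D.Adj γ δ) (h' : D.Adj δ ε) (ho : ⟪D.P γ, D.P ε⟫ = 0) :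
    D.Adj γ ε := by
  obtain ⟨u, -, hu, hu'⟩ := exists_orthonorm_next hF (isNondeg_top hF)
    (orthonorm_three hF (D.P_norm γ) (D.P_norm δ) (D.P_norm ε) (Amalgam.Adj.orth D hF h) ho
      (Amalgam.Adj.orth D hF h')) (fun _ => trivial) (by simp)
  have u1 : ⟪u, D.P γ⟫ = 0 := hu' 0
  have u2 : ⟪u, D.P δ⟫ = 0 := hu' 1
  have u3 : ⟪u, D.P ε⟫ = 0 := hu' 2
  obtain ⟨η, hη, hηu⟩ := exists_base D hF ε hu u3
  have hc : ∀ {g : ↥(SU 4 F q) × G}, ⟪u, D.P g⟫ = 0 → ⟪D.P g, sv η.1 D.e0⟫ = 0 :=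
    fun h => by rw [hηu]; exact herm_eq_zero_comm hF h
  obtain ⟨a, ha, hadj, hP⟩ := exists_adj D hF γ (D.P_norm ε) ho
  have i1 := InB.step D hF (InB.of_sim D (Amalgam.Sim.symm D hη)) (Adj.symm D hF h') (hc u2)
  have i3 := InB.step D hF (InB.step D hF i1 (Adj.symm D hF h) (hc u1)) hadj (hc (by rw [hP]; exact u3))
  exact Amalgam.Adj.congr_right D hadj (Amalgam.Sim.trans D (Amalgam.Sim.symm D (InB.sim D i3 (hP.trans (Amalgam.Sim.P_eq D hη))))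
    (Amalgam.Sim.symm D hη))


end Four

end CfsgLib.Phan
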