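import Mathlib
import Cfsg.Agent.Phan.Four.Basic

/-!
# Unit vectors of a four-dimensional Hermitian space

Existence of unit vectors orthogonal to, or avoiding, prescribed vectors.
-/

set_option autoImplicit false

namespace CfsgLib.Phan

open Cfsg CfsgLib.Unitary

variable {F : Type*} [Field F] [Fintype F] {q : ℕ}

local notation "⟪" u ", " v "⟫" => hermForm 4 F q u v

namespace Four

variable (hF : Fintype.card F = q ^ 2)
include hF

/-- A vector of non-zero norm has a unit multiple. -/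
theorem exists_scale {v : Fin 4 → F} (hv : ⟪v, v⟫ ≠ 0) : ∃ c : F, c ≠ 0 ∧ ⟪c • v, c • v⟫ = 1 := by
  obtain ⟨c, hc⟩ := exists_norm_eq hF (a := ⟪v, v⟫⁻¹) (by rw [inv_pow_q, herm_self_fixed hF])
  refine ⟨c, fun h0 => ?_, by rw [herm_self_smul, hc, inv_mul_cancel₀ hv]⟩
  rw [h0, zero_pow (Nat.succ_ne_zero q)] at hc
  exact inv_ne_zero hv hc.symm

theorem herm_eq_zero_smul {c : F} (hc : c ≠ 0) {u v : Fin 4 → F} (h : ⟪u, c • v⟫ = 0) : ⟪u, v⟫ = 0 := by
  rw [herm_smul_right, mul_eq_zero] at h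
  exact h.resolve_left (pow_ne_zero _ hc)

/-- The unit vector completing two orthonormal vectors and a third one to four. -/
theorem exists_fourth {x y z : Fin 4 → F} (hx : ⟪x, x⟫ = 1) (hy : ⟪y, y⟫ = 1) (hz : ⟪z, z⟫ = 1)
    (hxy : ⟪x, y⟫ = 0) (hxz : ⟪x, z⟫ = 0) (hyz : ⟪y, z⟫ = 0) :
    ∃ u, ⟪u, u⟫ = 1 ∧ ⟪u, x⟫ = 0 ∧ ⟪u, y⟫ = 0 ∧ ⟪u, z⟫ = 0 := by
  obtain ⟨u, -, hu, hu'⟩ := exists_orthonorm_next hF (isNondeg_top hF)
    (orthonorm_three hF hx hy hz hxy hxz hyz) (fun _ => trivial) (by simp)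
  exact ⟨u, hu, hu' 0, hu' 1, hu' 2⟩

/-- Two orthonormal vectors complete to a frame. -/
theorem exists_two {x y : Fin 4 → F} (hx : ⟪x, x⟫ = 1) (hy : ⟪y, y⟫ = 1) (hxy : ⟪x, y⟫ = 0) :
    ∃ u u', ⟪u, u⟫ = 1 ∧ ⟪u', u'⟫ = 1 ∧ ⟪u, u'⟫ = 0 ∧ ⟪u, x⟫ = 0 ∧ ⟪u, y⟫ = 0 ∧ ⟪u', x⟫ = 0 ∧
      ⟪u', y⟫ = 0 := by
  obtain ⟨u, hu1, hux, huy⟩ := exists_unit_perp_two hF (m := 4) le_rfl hx y
  obtain ⟨u', h1, h2, h3, h4⟩ := exists_fourth hF hx hy hu1 hxy (herm_eq_zero_comm hF hux)
    (herm_eq_zero_comm hF huy)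
  exact ⟨u, u', hu1, h1, herm_eq_zero_comm hF h4, hux, huy, h2, h3⟩

omit hF in
/-- The square norm of the component of `x` outside two orthonormal vectors. -/
def rest (y z x : Fin 4 → F) : F := ⟪x, x⟫ - ⟪x, y⟫ ^ (q + 1) - ⟪x, z⟫ ^ (q + 1)

/-- A unit vector orthogonal to three vectors spanning a non-degenerate space. -/
theorem exists_unit_perp_rest {x y z : Fin 4 → F} (hy : ⟪y, y⟫ = 1) (hz : ⟪z, z⟫ = 1) (hyz : ⟪y, z⟫ = 0)
    (h : rest (q := q) y z x ≠ 0) : ∃ u, ⟪u, u⟫ = 1 ∧ ⟪u, y⟫ = 0 ∧ ⟪u, z⟫ = 0 ∧ ⟪u, x⟫ = 0 := by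
  set g := x - ⟪x, y⟫ • y - ⟪x, z⟫ • z with hg
  have hgy : ⟪g, y⟫ = 0 := by
    rw [hg, herm_sub_left, herm_sub_left, herm_smul_left, herm_smul_left, hy, herm_eq_zero_comm hF hyz]
    ring
  have hgz : ⟪g, z⟫ = 0 := by
    rw [hg, herm_sub_left, herm_sub_left, herm_smul_left, herm_smul_left, hz, hyz]
    ring
  have hgg : ⟪g, g⟫ = rest (q := q) y z x := by
    conv_lhs => arg 5; rw [hg]
    rw [herm_sub_right hF, herm_sub_right hF, herm_smul_right, herm_smul_right, hgy, hgz, hg, herm_sub_left,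
      herm_sub_left, herm_smul_left, herm_smul_left, herm_conj hF x y, herm_conj hF x z, rest]
    ring
  obtain ⟨c, hc, hc1⟩ := exists_scale hF (v := g) (by rwa [hgg])
  obtain ⟨u, hu, u1, u2, u3⟩ := exists_fourth hF hy hz hc1 hyz
    (by rw [herm_smul_right, herm_eq_zero_comm hF hgy, mul_zero])
    (by rw [herm_smul_right, herm_eq_zero_comm hF hgz, mul_zero])
  refine ⟨u, hu, u1, u2, ?_⟩
  have h4 := herm_eq_zero_smul hF hc u3
  rwa [hg, herm_sub_right hF, herm_sub_right hF, herm_smul_right, herm_smul_right, u1, u2, mul_zero, mul_zero,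
    sub_zero, sub_zero] at h4

/-- The unit vector of the plane of `p` and `r` orthogonal to `p`. -/
theorem exists_partner_unit {p r : Fin 4 → F} (hp : ⟪p, p⟫ = 1) (hr : ⟪r, r⟫ = 1) (h : ⟪r, p⟫ ^ (q + 1) ≠ 1) :
    ∃ (e : Fin 4 → F) (s : F), s ≠ 0 ∧ ⟪e, e⟫ = 1 ∧ ⟪e, p⟫ = 0 ∧ r = ⟪r, p⟫ • p + s • e ∧
      e = s⁻¹ • proj q p r := by
  obtain ⟨c, hc, hc1⟩ := exists_scale hF (v := proj q p r) (by
    rw [herm_proj_self hF hp hr, sub_ne_zero]; exact Ne.symm h)
  refine ⟨c • proj q p r, c⁻¹, inv_ne_zero hc, hc1, by rw [herm_smul_left, proj_perp hp, mul_zero], ?_,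
    by rw [inv_inv]⟩
  rw [smul_smul, inv_mul_cancel₀ hc, one_smul]
  exact eq_add_proj q p r

theorem perp_partner {a p r e : Fin 4 → F} {s : F} (hs : s ≠ 0) (hr : r = ⟪r, p⟫ • p + s • e)
    (hap : ⟪a, p⟫ = 0) (har : ⟪a, r⟫ = 0) : ⟪a, e⟫ = 0 := by
  rw [hr, herm_add_right hF, herm_smul_right, hap, mul_zero, zero_add] at har
  exact herm_eq_zero_smul hF hs har

/-- A fixed element of `x ↦ x ^ q` different from `0` and `1`. -/
theorem exists_fixed_avoid (hq : 3 ≤ q) : ∃ c : F, c ^ q = c ∧ c ≠ 0 ∧ c ≠ 1 := by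
  classical
  have hcard : 3 ≤ (Finset.univ.filter fun x : F => x ^ q = x).card := by
    rw [← Fintype.card_subtype, ← Nat.card_eq_fintype_card, card_fixed hF]; exact hq
  obtain ⟨a, ha⟩ : ((Finset.univ.filter fun x : F => x ^ q = x) \ {0, 1}).Nonempty := by
    rw [← Finset.card_pos]
    have h1 := Finset.le_card_sdiff {(0 : F), 1} (Finset.univ.filter fun x : F => x ^ q = x)
    have h2 := Finset.card_le_two (a := (0 : F)) (b := 1)
    omega
  simp only [Finset.mem_sdiff, Finset.mem_filter, Finset.mem_univ, true_and, Finset.mem_insert,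
    Finset.mem_singleton, not_or] at ha
  exact ⟨a, ha.1, ha.2.1, ha.2.2⟩

/-- In the plane of two orthonormal vectors some unit vector avoids a given norm of the product with `h`. -/
theorem exists_plane_avoid (hq : 3 ≤ q) {u u' h : Fin 4 → F} (hu : ⟪u, u⟫ = 1) (hu' : ⟪u', u'⟫ = 1)
    (huu : ⟪u, u'⟫ = 0) {κ : F} (hne : κ ≠ 0 ∨ ⟪u, h⟫ ≠ 0 ∨ ⟪u', h⟫ ≠ 0) :
    ∃ s t : F, ⟪s • u + t • u', s • u + t • u'⟫ = 1 ∧ ⟪s • u + t • u', h⟫ ^ (q + 1) ≠ κ := by
  have hu'u := herm_eq_zero_comm hF huu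
  have key : ∀ s t : F, ⟪s • u + t • u', s • u + t • u'⟫ = s ^ (q + 1) + t ^ (q + 1) ∧
      ⟪s • u + t • u', h⟫ = s * ⟪u, h⟫ + t * ⟪u', h⟫ := fun s t => by
    refine ⟨?_, by rw [herm_add_left, herm_smul_left, herm_smul_left]⟩
    simp only [herm_add_left, herm_add_right hF, herm_smul_left, herm_smul_right, hu, hu', huu, hu'u, mul_one,
      mul_zero, add_zero, zero_add]
    ring
  by_cases hA : ⟪u, h⟫ ^ (q + 1) = κ
  swap
  · exact ⟨1, 0, by rw [(key 1 0).1]; simp, by rw [(key 1 0).2]; simpa using hA⟩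
  by_cases hB : ⟪u', h⟫ ^ (q + 1) = κ
  swap
  · exact ⟨0, 1, by rw [(key 0 1).1]; simp, by rw [(key 0 1).2]; simpa using hB⟩
  have hκ : κ ≠ 0 := by
    intro h0
    rw [h0] at hA hB
    rcases hne with hne | hne | hne
    · exact hne h0
    · exact hne (eq_zero_of_pow_eq_zero hA)
    · exact hne (eq_zero_of_pow_eq_zero hB)
  obtain ⟨c, hc, hc0, hc1⟩ := exists_fixed_avoid hF hq
  obtain ⟨s, hs⟩ := exists_norm_eq hF hc
  obtain ⟨t, ht⟩ := exists_norm_eq hF (a := 1 - c) (by rw [sub_pow_q hF, one_pow, hc])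
  set A := ⟪u, h⟫
  set B := ⟪u', h⟫
  set X := s * A * (t * B) ^ q with hX
  have hne0 : ∀ {x a : F}, x ^ (q + 1) = a → a ≠ 0 → x ≠ 0 := fun e ha h0 => ha (by
    rw [← e, h0, zero_pow (Nat.succ_ne_zero q)])
  have hX0 : X ≠ 0 := mul_ne_zero (mul_ne_zero (hne0 hs hc0) (hne0 hA hκ))
    (pow_ne_zero _ (mul_ne_zero (hne0 ht (sub_ne_zero.2 (Ne.symm hc1))) (hne0 hB hκ)))
  obtain ⟨ε, hε, hε2⟩ := exists_norm_one_ne_inv hF
  obtain ⟨e, he, hXe⟩ : ∃ e : F, e ^ (q + 1) = 1 ∧ X * e ^ q + (X * e ^ q) ^ q ≠ 0 := by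
    by_contra hall
    push Not at hall
    have e1 := hall 1 (one_pow _)
    rw [one_pow, mul_one] at e1
    have e2 := hall ε hε
    rw [mul_pow, pow_q_q hF] at e2
    have e3 : X * (ε ^ q - ε) = 0 := by linear_combination e2 - ε * e1
    refine hε2 ?_
    rw [sq]
    nth_rw 1 [← sub_eq_zero.1 ((mul_eq_zero.1 e3).resolve_left hX0)]
    rw [← pow_succ]; exact hε
  refine ⟨s, t * e, ?_, ?_⟩
  · rw [(key _ _).1, mul_pow, hs, ht, he, mul_one, add_sub_cancel]
  · rw [(key _ _).2, ← add_sub_cancel_left κ ((s * A + t * e * B) ^ (q + 1))]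
    intro hcon
    refine hXe ?_
    have hexp : (s * A + t * e * B) ^ (q + 1) = κ + (X * e ^ q + (X * e ^ q) ^ q) := by
      rw [hX, pow_succ, add_pow_q hF]
      simp only [mul_pow, pow_q_q hF]
      linear_combination (A ^ (q + 1)) * hs + (e ^ (q + 1) * B ^ (q + 1)) * ht + c * hA +
        ((1 - c) * e ^ (q + 1)) * hB + ((1 - c) * κ) * he
    linear_combination hcon - hexp

/-- A unit vector in the orthogonal of two orthonormal vectors avoiding a norm. -/
theorem exists_unit_perp_avoid (hq : 3 ≤ q) {x y h : Fin 4 → F} (hx : ⟪x, x⟫ = 1) (hy : ⟪y, y⟫ = 1)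
    (hxy : ⟪x, y⟫ = 0) {κ : F} (hne : κ ≠ 0 ∨ ∃ v, ⟪v, x⟫ = 0 ∧ ⟪v, y⟫ = 0 ∧ ⟪v, h⟫ ≠ 0) :
    ∃ c, ⟪c, c⟫ = 1 ∧ ⟪c, x⟫ = 0 ∧ ⟪c, y⟫ = 0 ∧ ⟪c, h⟫ ^ (q + 1) ≠ κ := by
  obtain ⟨u, u', hu, hu', huu, ux, uy, u'x, u'y⟩ := exists_two hF hx hy hxy
  have hne' : κ ≠ 0 ∨ ⟪u, h⟫ ≠ 0 ∨ ⟪u', h⟫ ≠ 0 := by
    rcases hne with hne | ⟨v, vx, vy, vh⟩
    · exact Or.inl hne
    refine Or.inr ?_
    by_contra hcon
    push Not at hcon
    have hf : Orthonorm q ![u, u', x, y] := by
      intro i j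
      fin_cases i <;> fin_cases j <;>
        simp [hu, hu', hx, hy, huu, ux, uy, u'x, u'y, hxy, herm_eq_zero_comm hF huu, herm_eq_zero_comm hF ux,
          herm_eq_zero_comm hF uy, herm_eq_zero_comm hF u'x, herm_eq_zero_comm hF u'y, herm_eq_zero_comm hF hxy]
    refine vh ?_
    rw [expand_orthonorm hF hf v, Fin.sum_univ_four]
    simp [herm_add_left, herm_smul_left, vx, vy, hcon.1, hcon.2]
  obtain ⟨s, t, h1, h2⟩ := exists_plane_avoid hF hq hu hu' huu hne'
  refine ⟨_, h1, ?_, ?_, h2⟩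
  · rw [herm_add_left, herm_smul_left, herm_smul_left, ux, u'x, mul_zero, mul_zero, add_zero]
  · rw [herm_add_left, herm_smul_left, herm_smul_left, uy, u'y, mul_zero, mul_zero, add_zero]

/-- The norms on a fibre of the trace avoid two prescribed values, unless `q = 4` and these differ by the
square of the trace. -/
theorem exists_trace_norm (hq : 4 ≤ q) {T c d : F} (hT : T ^ q = T)
    (h4 : q = 4 → c = d ∨ (T ≠ 0 ∧ c - d ≠ T ^ 2)) :
    ∃ w : F, w + w ^ q = T ∧ w ^ (q + 1) ≠ c ∧ w ^ (q + 1) ≠ d := by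
  classical
  obtain ⟨w₀, hw₀⟩ := exists_trace_eq hF hT
  by_cases hsmall : q = 4 ∧ c ≠ d
  · obtain ⟨rfl, hcd⟩ := hsmall
    obtain ⟨hT0, hTd⟩ := (h4 rfl).resolve_left hcd
    have h2 : (2 : F) = 0 := by
      have h := FiniteField.cast_card_eq_zero F
      rw [hF] at h
      push_cast at h
      exact eq_zero_of_pow_eq_zero (n := 4) (by linear_combination h)
    obtain ⟨n, hn, hn0, hn1⟩ := exists_fixed_avoid hF (by norm_num)
    have hn2 : n ^ 2 + n + 1 = 0 := by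
      have : n * (n - 1) * (n ^ 2 + n + 1) = 0 := by linear_combination hn
      exact (mul_eq_zero.1 this).resolve_left (mul_ne_zero hn0 (sub_ne_zero.2 hn1))
    set s := T * n with hs
    have hsq : s ^ 4 = s := by rw [hs, mul_pow, hT, hn]
    have hnorm : (w₀ + s) ^ (4 + 1) = w₀ ^ (4 + 1) + T ^ 2 := by
      have e1 : (w₀ + s) ^ 4 = w₀ ^ 4 + s := by rw [add_pow_q hF, hsq]
      rw [pow_succ (w₀ + s), e1, hs]
      linear_combination T * n * hw₀ + T ^ 2 * hn2 - T ^ 2 * h2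
    by_cases hw : w₀ ^ (4 + 1) = c ∨ w₀ ^ (4 + 1) = d
    · refine ⟨w₀ + s, by rw [add_pow_q hF, hsq]; linear_combination hw₀ + s * h2, fun h => ?_, fun h => ?_⟩
      · rcases hw with hw | hw
        · exact pow_ne_zero 2 hT0 (by linear_combination h - hnorm - hw)
        · exact hTd (by linear_combination hnorm - h + hw)
      · rcases hw with hw | hw
        · exact hTd (by linear_combination h - hw - hnorm - T ^ 2 * h2)
        · exact pow_ne_zero 2 hT0 (by linear_combination h - hnorm - hw)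
    · push Not at hw
      exact ⟨w₀, hw₀, hw.1, hw.2⟩
  · -- count: every value is taken at most twice
    push Not at hsmall
    set S := Finset.univ.filter fun w : F => w + w ^ q = T with hS
    have hScard : q ≤ S.card := by
      have h0 : q = (Finset.univ.filter fun x : F => x + x ^ q = 0).card :=
        (card_trace_zero hF).symm.trans (by rw [Nat.card_eq_fintype_card, Fintype.card_subtype])
      refine h0.le.trans (Finset.card_le_card_of_injOn (fun x => x + w₀) (fun x hx => ?_)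
        (fun x _ y _ h => add_right_cancel h))
      simp only [hS, Finset.coe_filter, Finset.mem_univ, true_and, Set.mem_setOf_eq] at hx ⊢
      rw [add_pow_q hF]
      linear_combination hx + hw₀
    have hfib : ∀ v : F, (S.filter fun w => w ^ (q + 1) = v).card ≤ 2 := by
      intro v
      by_cases he : (S.filter fun w => w ^ (q + 1) = v).Nonempty
      · obtain ⟨w, hw⟩ := he
        simp only [hS, Finset.mem_filter, Finset.mem_univ, true_and] at hw
        refine (Finset.card_le_card (t := {w, w ^ q}) fun x hx => ?_).trans Finset.card_le_two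
        simp only [hS, Finset.mem_filter, Finset.mem_univ, true_and] at hx
        have : (x - w) * (x - w ^ q) = 0 := by
          rw [pow_succ'] at hx hw
          linear_combination x * hx.1 - hx.2 + hw.2 - x * hw.1
        simpa [sub_eq_zero] using this
      · rw [Finset.not_nonempty_iff_eq_empty] at he
        simp [he]
    by_contra hall
    push Not at hall
    have hsub : S ⊆ (S.filter fun w => w ^ (q + 1) = c) ∪ (S.filter fun w => w ^ (q + 1) = d) := by
      intro w hw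
      have hwT : w + w ^ q = T := by simpa [hS] using hw
      by_cases h : w ^ (q + 1) = c
      · exact Finset.mem_union_left _ (Finset.mem_filter.2 ⟨hw, h⟩)
      · exact Finset.mem_union_right _ (Finset.mem_filter.2 ⟨hw, hall w hwT h⟩)
    rcases hq.eq_or_lt with h | h
    · have hcd : c = d := hsmall h.symm
      subst hcd
      rw [Finset.union_self] at hsub
      have := Finset.card_le_card hsub
      have := hfib c
      omega
    · have := Finset.card_le_card hsub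
      have := Finset.card_union_le (S.filter fun w => w ^ (q + 1) = c) (S.filter fun w => w ^ (q + 1) = d)
      have := hfib c
      have := hfib d
      omega

end Four

end CfsgLib.Phan
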