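import Mathlib
import Cfsg.Agent.Phan.Glue
import Cfsg.Agent.Phan.Four.AutTwo
import Cfsg.Agent.Phan.Four.Vectors

/-!
# Aligning two consecutive standard pairs, `q ≥ 4`
-/

set_option autoImplicit false

namespace CfsgLib.Phan

open Cfsg CfsgLib.Unitary

variable {F : Type*} [Field F] [Fintype F] {q : ℕ} (hF : Fintype.card F = q ^ 2)
include hF

theorem mat_emb_w01 (u : ↥(SU 2 F q)) :
    mat (emb hF w01 u) = !![mat u 0 0, mat u 0 1, 0; mat u 1 0, mat u 1 1, 0; 0, 0, 1] := by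
  show extM w01 (mat u) = _
  ext i j
  fin_cases i <;> fin_cases j <;> simp [extM, incl, Matrix.mul_apply, Fin.sum_univ_two, w01, win, Fin.ext_iff]

theorem mat_emb_w12 (u : ↥(SU 2 F q)) :
    mat (emb hF w12 u) = !![1, 0, 0; 0, mat u 0 0, mat u 0 1; 0, mat u 1 0, mat u 1 1] := by
  show extM w12 (mat u) = _
  have hi : incl F w12 = !![0, 0; 1, 0; 0, 1] := by
    ext i j
    fin_cases i <;> fin_cases j <;> simp [incl_apply, w12, Fin.ext_iff, win_apply_val]
  rw [extM, hi]
  ext i j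
  fin_cases i <;> fin_cases j <;> simp [Matrix.vecMul, dotProduct, Matrix.mul_apply, Matrix.one_apply, Fin.sum_univ_two]

theorem sv_diag_e0 (a : {x : F // x ^ (q + 1) = 1}) :
    sv (emb hF w01 (diag2 hF a)) (Pi.single (0 : Fin 3) 1) = a.1 • Pi.single (0 : Fin 3) 1 := by
  funext i
  rw [sv_single, mat_emb_w01, mat_diag2]
  fin_cases i <;> simp

/-- The torus of the first block normalises the second block. -/
theorem diag_conj_mem (a : {x : F // x ^ (q + 1) = 1}) (u : ↥(SU 2 F q)) :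
    emb hF w01 (diag2 hF a) * emb hF w12 u * (emb hF w01 (diag2 hF a))⁻¹ ∈ (emb hF w12).range := by
  rw [range_w12 hF, ← stab_smul hF (Pi.single (0 : Fin 3) 1) (norm_one_ne_zero hF a), mem_stab, sv_mul, sv_mul]
  have h1 : sv (emb hF w12 u) (Pi.single (0 : Fin 3) 1) = Pi.single (0 : Fin 3) 1 :=
    sv_emb_single_of_notMem hF _ _ fun j => by fin_cases j <;> decide
  rw [sv_inv_eq (sv_diag_e0 hF a), h1]
  exact sv_diag_e0 hF a

/-- An element of the first block whose commutators with the second block are central is trivial. -/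
theorem eq_one_of_central_comm (hq : 3 ≤ q) (v : ↥(SU 2 F q))
    (h : ∀ u, emb hF w01 v * emb hF w12 u * (emb hF w01 v)⁻¹ * (emb hF w12 u)⁻¹ ∈
      Subgroup.center ↥(SU 3 F q)) : v = 1 := by
  set z := emb hF w01 v with hz
  set e1 : Fin 3 → F := Pi.single 1 1
  set e2 : Fin 3 → F := Pi.single 2 1
  have n1 : ∀ i : Fin 3, hermForm 3 F q (Pi.single i 1) (Pi.single i 1) = (1 : F) := fun i => by
    rw [herm_single_single hF, if_pos rfl]
  have n0 : ∀ i j : Fin 3, i ≠ j → hermForm 3 F q (Pi.single i 1) (Pi.single j 1) = (0 : F) := fun i j hij => by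
    rw [herm_single_single hF, if_neg hij]
  have hz2 : sv z e2 = e2 := sv_emb_single_of_notMem hF _ _ fun j => by fin_cases j <;> decide
  have eig : ∀ w, hermForm 3 F q w w = 1 → hermForm 3 F q w (Pi.single 0 1) = 0 → ∃ κ : F, sv z w = κ • w := by
    intro w hw hw0
    obtain ⟨g, hg⟩ := exists_SU_map_orthonorm hF (f := ![Pi.single (0 : Fin 3) 1, e2]) (f' := ![Pi.single (0 : Fin 3) 1, w])
      (orthonorm_two hF (n1 _) (n1 _) (n0 _ _ (by decide))) (orthonorm_two hF (n1 _) hw (herm_eq_zero_comm hF hw0))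
      (by omega)
    obtain ⟨u, rfl⟩ : g ∈ (emb hF w12).range := by rw [range_w12 hF]; exact hg 0
    obtain ⟨c, hc⟩ := (mem_center_SU_iff hF (by omega) _).1 (h u)
    refine ⟨c, ?_⟩
    have hs : ∀ x, sv (z * emb hF w12 u * z⁻¹ * (emb hF w12 u)⁻¹) x = c • x := fun x => by
      rw [sv, hc]; ext i; simp [Matrix.mulVec_diagonal]
    have h2 := hs (sv (emb hF w12 u) e2)
    rw [sv_mul, sv_inv_sv, sv_mul, sv_inv_eq hz2, sv_mul] at h2
    rw [show sv (emb hF w12 u) e2 = w from hg 1] at h2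
    exact h2
  obtain ⟨κ, hκ⟩ := eig e1 (n1 _) (n0 _ _ (by decide))
  obtain ⟨c, hc, hc0, hc1⟩ := Four.exists_fixed_avoid hF hq
  obtain ⟨s, hs⟩ := exists_norm_eq hF hc
  obtain ⟨t, ht⟩ := exists_norm_eq hF (a := 1 - c) (by rw [sub_pow_q hF, one_pow, hc])
  have hs0 : s ≠ 0 := fun h0 => hc0 (by rw [← hs, h0, zero_pow (Nat.succ_ne_zero q)])
  have ht0 : t ≠ 0 := fun h0 => hc1 (by
    rw [h0, zero_pow (Nat.succ_ne_zero q)] at ht
    exact (sub_eq_zero.1 ht.symm).symm)
  obtain ⟨κ', hκ'⟩ := eig (s • e1 + t • e2)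
    (by simp only [herm_add_left, herm_add_right hF, herm_smul_left, herm_smul_right, e1, e2, n1,
          n0 1 2 (by decide), n0 2 1 (by decide), mul_one, mul_zero, add_zero, zero_add]
        linear_combination hs + ht)
    (by simp only [herm_add_left, herm_smul_left, e1, e2, n0 1 0 (by decide), n0 2 0 (by decide), mul_zero, add_zero])
  rw [sv_add, sv_smul, sv_smul, hκ, hz2] at hκ'
  have a1 := congrFun hκ' 1
  have a2 := congrFun hκ' 2
  simp [e1, e2] at a1 a2
  have hk' : κ' = 1 := by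
    by_contra hne
    exact hne (mul_right_cancel₀ ht0 (by linear_combination -a2))
  have hk : κ = 1 := mul_right_cancel₀ hs0 (by rw [hk'] at a1; linear_combination a1)
  have hcol : ∀ i, mat z i 1 = e1 i := fun i => by
    rw [← sv_single]
    exact congrFun (show sv z e1 = e1 by rw [hκ, hk, one_smul]) i
  have v01 := hcol 0
  have v11 := hcol 1
  rw [hz, mat_emb_w01] at v01 v11
  simp [e1] at v01 v11
  obtain ⟨-, e11, -⟩ := su_two_entries hF v
  refine su_two_ext hF ?_ v01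
  show mat v 0 0 = (1 : Matrix (Fin 2) (Fin 2) F) 0 0
  rw [Matrix.one_apply_eq]
  rw [v11] at e11
  have := congrArg (· ^ q) e11
  simpa [pow_q_q hF] using this.symm

/-- A pair can be reparametrised to agree with the previous one on the common block. -/
theorem exists_aligned (hq : 4 ≤ q) {G : Type*} [Group G] {A B C : Subgroup G}
    (ρ ρ' : ↥(SU 3 F q) →* G) (hk : ρ.ker ≤ Subgroup.center ↥(SU 3 F q))
    (hk' : ρ'.ker ≤ Subgroup.center ↥(SU 3 F q)) (hA : (ρ.comp (emb hF w01)).range = A)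
    (hB : (ρ.comp (emb hF w12)).range = B) (hB' : (ρ'.comp (emb hF w01)).range = B)
    (hC : (ρ'.comp (emb hF w12)).range = C) (hAC : ∀ x ∈ A, ∀ y ∈ C, x * y = y * x) :
    ∃ ρ'' : ↥(SU 3 F q) →* G, ρ''.ker ≤ Subgroup.center ↥(SU 3 F q) ∧
      (ρ''.comp (emb hF w01)).range = B ∧ (ρ''.comp (emb hF w12)).range = C ∧
      ρ''.comp (emb hF w01) = ρ.comp (emb hF w12) := by
  have i1 : Function.Injective (ρ.comp (emb hF w12)) :=
    injective_comp_emb hF (by omega) ρ hk w12 (r := 0) fun j => by fin_cases j <;> decide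
  have i2 : Function.Injective (ρ'.comp (emb hF w01)) :=
    injective_comp_emb hF (by omega) ρ' hk' w01 (r := 2) fun j => by fin_cases j <;> decide
  have hmem : ∀ u, ∃ v, ρ' (emb hF w01 v) = ρ (emb hF w12 u) := fun u => by
    have h : ρ (emb hF w12 u) ∈ (ρ'.comp (emb hF w01)).range := hB' ▸ hB ▸ ⟨u, rfl⟩
    exact h
  choose f hf using hmem
  let α : ↥(SU 2 F q) →* ↥(SU 2 F q) := MonoidHom.mk' f fun x y => i2 (by
    show ρ' (emb hF w01 (f (x * y))) = ρ' (emb hF w01 (f x * f y))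
    rw [hf, map_mul, map_mul, map_mul, map_mul, hf, hf])
  have hα : ∀ u, ρ' (emb hF w01 (α u)) = ρ (emb hF w12 u) := hf
  have hinj : Function.Injective α := fun x y h => i1 (by
    show ρ (emb hF w12 x) = ρ (emb hF w12 y)
    rw [← hα, ← hα, h])
  have hbij := Finite.injective_iff_bijective.1 hinj
  obtain ⟨l, hl, hl2⟩ := exists_norm_one_ne_inv hF
  set d := emb hF w01 (diag2 hF ⟨l, hl⟩) with hd
  have hdiag : ∀ ν, ∃ a, α (diag2 hF a) = diag2 hF ν := by
    intro ν
    obtain ⟨h, hh⟩ := hbij.2 (diag2 hF ν)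
    set x := ρ (emb hF w12 h) with hx
    set t := ρ d with ht
    have htA : t ∈ A := hA ▸ ⟨_, rfl⟩
    obtain ⟨h', hh'⟩ := diag_conj_mem hF ⟨l, hl⟩ h
    have htx : t * x * t⁻¹ = ρ (emb hF w12 h') := by rw [hh', map_mul, map_mul, map_inv]
    have hx' : x = ρ' (emb hF w01 (diag2 hF ν)) := by rw [hx, ← hα, hh]
    have hnorm : ∀ u, x * ρ' (emb hF w12 u) * x⁻¹ ∈ C := fun u => by
      obtain ⟨u', hu'⟩ := diag_conj_mem hF ν u
      rw [hx', ← map_inv, ← map_mul, ← map_mul, ← hu', ← hC]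
      exact ⟨u', rfl⟩
    have hv : (diag2 hF ν)⁻¹ * α h' = 1 := eq_one_of_central_comm hF (by omega) _ fun u => hk' (by
      have hy : ρ' (emb hF w12 u) ∈ C := hC ▸ ⟨u, rfl⟩
      set y := ρ' (emb hF w12 u) with hydef
      have hz : ρ' (emb hF w01 ((diag2 hF ν)⁻¹ * α h')) = x⁻¹ * (t * x * t⁻¹) := by
        rw [map_mul, map_mul, map_inv, map_inv, hα, ← hx', htx]
      have c1 := hAC t⁻¹ (A.inv_mem htA) y hy
      have c2 := hAC t htA _ (hnorm u)
      have hzy : x⁻¹ * (t * x * t⁻¹) * y = y * (x⁻¹ * (t * x * t⁻¹)) := by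
        calc x⁻¹ * (t * x * t⁻¹) * y = x⁻¹ * t * x * (t⁻¹ * y) := by group
          _ = x⁻¹ * t * x * (y * t⁻¹) := by rw [c1]
          _ = x⁻¹ * (t * (x * y * x⁻¹)) * x * t⁻¹ := by group
          _ = x⁻¹ * (x * y * x⁻¹ * t) * x * t⁻¹ := by rw [c2]
          _ = _ := by group
      rw [MonoidHom.mem_ker, map_mul, map_mul, map_mul, map_inv, map_inv, hz, ← hydef, hzy]
      group)
    have hfix : ρ (d * emb hF w12 h * d⁻¹ * (emb hF w12 h)⁻¹) = 1 := by
      rw [← hh', map_mul, map_inv, ← hα h', ← inv_mul_eq_one.1 hv, ← hx', mul_inv_cancel]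
    have he0 : sv (d * emb hF w12 h * d⁻¹ * (emb hF w12 h)⁻¹) (Pi.single (0 : Fin 3) 1) = Pi.single 0 1 := by
      have hs : ∀ g ∈ (emb hF w12 : ↥(SU 2 F q) →* ↥(SU 3 F q)).range, sv g (Pi.single (0 : Fin 3) 1) = Pi.single 0 1 :=
        fun g hg => by rw [range_w12 hF] at hg; exact hg
      exact hs _ (Subgroup.mul_mem _ ⟨h', hh'⟩ (Subgroup.inv_mem _ ⟨h, rfl⟩))
    have h1 := eq_one_of_central hF (by omega) (hk (MonoidHom.mem_ker.2 hfix))
      (fun h0 => by simpa using congrFun h0 0) he0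
    rw [mul_inv_eq_one, mul_inv_eq_iff_eq_mul] at h1
    have h2 := congrArg (fun g => mat g 1 2) h1
    simp only [mat_mul, hd, mat_emb_w01, mat_emb_w12, mat_diag2, Matrix.mul_apply, Fin.sum_univ_three] at h2
    simp at h2
    obtain ⟨a, rfl⟩ := exists_diag2 hF (u := h) (by
      have h3 : (l ^ q - 1) * mat h 0 1 = 0 := by linear_combination h2
      refine (mul_eq_zero.1 h3).resolve_left fun h4 => hl2 ?_
      have := hl
      rw [pow_succ, sub_eq_zero.1 h4, one_mul] at this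
      rw [this, one_pow])
    exact ⟨a, hh⟩
  have hd2 : ∀ a, ∃ b, α (diag2 hF a) = diag2 hF b := by
    choose g hg using hdiag
    have hg1 : Function.Injective g := fun a b h => by
      have := (hg a).symm.trans (h ▸ hg b)
      have := congrArg (fun X => mat X 0 0) this
      exact Subtype.ext (by simpa [mat_diag2] using this)
    intro a
    obtain ⟨b, rfl⟩ := (Finite.injective_iff_surjective.1 hg1) a
    exact ⟨b, hg b⟩
  obtain ⟨d2, σ, hd2σ⟩ := exists_twist_two hF hq α hinj hd2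
  let d3 : Fin 3 → {x : F // x ^ (q + 1) = 1} := ![d2 0, d2 1, oneN]
  refine ⟨ρ'.comp (twist hF d3 σ), fun x hx => ?_, ?_, ?_, ?_⟩
  · have hT := Finite.injective_iff_bijective.1 (twist_injective hF d3 σ)
    have h := hk' (show twist hF d3 σ x ∈ ρ'.ker from hx)
    rw [Subgroup.mem_center_iff] at h ⊢
    intro y
    exact hT.1 (by rw [map_mul, map_mul]; exact h _)
  · rw [range_comp_emb_twist hF, hB']
  · rw [range_comp_emb_twist hF, hC]
  · refine MonoidHom.ext fun u => ?_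
    show ρ' (twist hF d3 σ (emb hF w01 u)) = ρ (emb hF w12 u)
    rw [← hα, hd2σ, twist_emb, show (fun i => d3 (w01 i)) = d2 from funext fun i => by fin_cases i <;> rfl]

end CfsgLib.Phan
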