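import Mathlib
import Cfsg.Agent.Phan.Local
import Cfsg.Agent.Phan.Four.AutTwo
import Cfsg.Agent.CurtisTitsA.AutTwo

/-!
# Subgroups of `SU_3(q)` isomorphic to `SU_2(q)`, `q ≥ 4`, fix a unit vector
-/

set_option autoImplicit false

namespace CfsgLib.Phan

open Cfsg CfsgLib.Unitary

variable {F : Type*} [Field F] [Fintype F] {q : ℕ} (hF : Fintype.card F = q ^ 2)

local notation "⟪" u ", " v "⟫" => hermForm 3 F q u v

include hF

/-- There are no totally isotropic planes in dimension three. -/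
theorem isotropic_prop {u v : Fin 3 → F} (hu0 : u ≠ 0) (hu : ⟪u, u⟫ = 0) (hv : ⟪v, v⟫ = 0) (huv : ⟪v, u⟫ = 0) :
    ∃ c : F, v = c • u := by
  obtain ⟨h, -, hhh, huh⟩ := exists_partner hF (isNondeg_top hF) (Submodule.mem_top (x := u)) hu0 hu
  have hhu : ⟪h, u⟫ = 1 := by rw [herm_conj hF u h, huh, one_pow]
  refine ⟨⟪v, h⟫, ?_⟩
  set w := v - ⟪v, h⟫ • u with hw
  have wu : ⟪w, u⟫ = 0 := by rw [hw, herm_sub_left, herm_smul_left, huv, hu, mul_zero, sub_zero]
  have wh : ⟪w, h⟫ = 0 := by rw [hw, herm_sub_left, herm_smul_left, huh, mul_one, sub_self]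
  have ww : ⟪w, w⟫ = 0 := by
    conv_lhs => arg 5; rw [hw]
    rw [herm_sub_right hF, herm_smul_right, wu, mul_zero, sub_zero, hw, herm_sub_left, herm_smul_left, hv,
      herm_eq_zero_comm hF huv, mul_zero, sub_zero]
  suffices w = 0 by rwa [hw, sub_eq_zero] at this
  by_contra hw0
  have hli : LinearIndependent F ![u, h, w] := by
    rw [Fintype.linearIndependent_iff]
    intro g hg
    simp only [Fin.sum_univ_three, Matrix.cons_val_zero, Matrix.cons_val_one, Matrix.cons_val] at hg
    have key : ∀ x, g 0 * ⟪u, x⟫ + g 1 * ⟪h, x⟫ + g 2 * ⟪w, x⟫ = 0 := fun x => by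
      rw [← herm_smul_left, ← herm_smul_left, ← herm_smul_left, ← herm_add_left, ← herm_add_left, hg,
        herm_zero_left]
    have g1 := key u
    have g0 := key h
    rw [hu, hhu, wu, mul_zero, mul_one, mul_zero, zero_add, add_zero] at g1
    rw [huh, g1, wh, zero_mul, mul_one, mul_zero, add_zero, add_zero] at g0
    rw [g0, g1, zero_smul, zero_smul, zero_add, zero_add, smul_eq_zero] at hg
    intro i
    fin_cases i
    · exact g0
    · exact g1
    · exact hg.resolve_right hw0
  refine hw0 (herm_nondeg hF _ fun x => ?_)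
  have hx : x ∈ Submodule.span F (Set.range ![u, h, w]) := by
    rw [hli.span_eq_top_of_card_eq_finrank' (by simp)]; trivial
  induction hx using Submodule.span_induction with
  | mem x hx => obtain ⟨i, rfl⟩ := hx; fin_cases i <;> assumption
  | zero => exact herm_zero_right hF _
  | add a b _ _ ha hb => rw [herm_add_right hF, ha, hb, add_zero]
  | smul c a _ ha => rw [herm_smul_right, ha, mul_zero]

theorem range_w01_card : Nat.card ↥(stab (q := q) (Pi.single (2 : Fin 3) (1 : F))) = Nat.card ↥(SU 2 F q) := by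
  rw [← range_w01 hF]
  exact (Nat.card_congr (MonoidHom.ofInjective (emb_injective hF w01)).toEquiv).symm

theorem exists_conj_unit {x : Fin 3 → F} (hx : ⟪x, x⟫ = 1) :
    ∃ s : ↥(SU 3 F q), sv s (Pi.single (2 : Fin 3) 1) = x := by
  obtain ⟨s, hs⟩ := exists_SU_map_orthonorm hF (f := ![Pi.single (2 : Fin 3) (1 : F)]) (f' := ![x])
    (orthonorm_one (by rw [herm_single_single hF, if_pos rfl])) (orthonorm_one hx) (by omega)
  exact ⟨s, hs 0⟩

theorem card_stab_unit {x : Fin 3 → F} (hx : ⟪x, x⟫ = 1) :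
    Nat.card ↥(stab (q := q) x) = Nat.card ↥(SU 2 F q) := by
  obtain ⟨s, rfl⟩ := exists_conj_unit hF hx
  rw [← map_conj_stab hF, Subgroup.card_map_of_injective (MulAut.conj s).injective, range_w01_card hF]

/-- An element of order `q + 1` of a unit stabiliser fixes nothing else. -/
theorem fixed_prop (hq : 2 ≤ q) {x v : Fin 3 → F} (hx : ⟪x, x⟫ = 1) {g : ↥(SU 3 F q)}
    (hg : g ∈ stab (q := q) x) (hord : orderOf g = q + 1) (hv : sv g v = v) : ∃ c : F, v = c • x := by
  obtain ⟨s, rfl⟩ := exists_conj_unit hF hx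
  rw [← map_conj_stab hF, ← range_w01 hF] at hg
  obtain ⟨k, ⟨u, rfl⟩, rfl⟩ := hg
  rw [show orderOf ((MulAut.conj s).toMonoidHom (emb hF w01 u)) = orderOf u from
    ((MulAut.conj s).injective |> fun h => orderOf_injective (MulAut.conj s).toMonoidHom h _).trans
      (orderOf_injective (emb hF w01) (emb_injective hF w01) u)] at hord
  set w := sv s⁻¹ v with hw
  have hfix : sv (emb hF w01 u) w = w := by
    have h : sv (s * emb hF w01 u * s⁻¹) v = v := hv
    rw [sv_mul, sv_mul, ← hw] at h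
    have := congrArg (sv s⁻¹) h
    rwa [sv_inv_sv, ← hw] at this
  have hm : (mat (emb hF w01 u)).mulVec w = w := hfix
  have m0 := congrFun hm 0
  have m1 := congrFun hm 1
  rw [show mat (emb hF w01 u) = !![mat u 0 0, mat u 0 1, 0; mat u 1 0, mat u 1 1, 0; 0, 0, 1] by
    show extM w01 (mat u) = _
    ext i j
    fin_cases i <;> fin_cases j <;> simp [extM, incl, Matrix.mul_apply, Fin.sum_univ_two, w01, win, Fin.ext_iff]] at m0 m1
  simp [Matrix.mulVec, dotProduct, Fin.sum_univ_three] at m0 m1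
  refine ⟨w 2, ?_⟩
  suffices h0 : w 0 = 0 ∧ w 1 = 0 by
    rw [← sv_sv_inv s v, ← hw, ← sv_smul]
    congr 1
    funext i
    fin_cases i <;> simp [h0.1, h0.2]
  by_contra hne
  have hdet : (mat u).det = 1 := (u : Matrix.SpecialLinearGroup (Fin 2) F).2
  rw [Matrix.det_fin_two] at hdet
  have htr : mat u 0 0 + mat u 1 1 = 2 := by
    have e : ∀ i, i = 0 ∨ i = 1 → w i * (mat u 0 0 + mat u 1 1 - 2) = 0 := by
      rintro i (rfl | rfl)
      · linear_combination (1 - mat u 1 1) * m0 + mat u 0 1 * m1 + w 0 * hdet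
      · linear_combination (1 - mat u 0 0) * m1 + mat u 1 0 * m0 + w 1 * hdet
    rw [not_and_or] at hne
    rcases hne with h | h
    · exact sub_eq_zero.1 ((mul_eq_zero.1 (e 0 (Or.inl rfl))).resolve_left h)
    · exact sub_eq_zero.1 ((mul_eq_zero.1 (e 1 (Or.inr rfl))).resolve_left h)
  have hsq : (mat u - 1) ^ 2 = 0 := by
    ext i j
    fin_cases i <;> fin_cases j <;> simp [sq, Matrix.mul_apply, Fin.sum_univ_two]
    · linear_combination (mat u 0 0) * htr - hdet
    · linear_combination (mat u 0 1) * htr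
    · linear_combination (mat u 1 0) * htr
    · linear_combination (mat u 1 1) * htr - hdet
  obtain ⟨p, hp⟩ := CharP.exists F
  obtain ⟨f, hpp, hf⟩ := FiniteField.card F p
  have := Fact.mk hpp
  have h1 : (mat u - 1) ^ p = 0 := pow_eq_zero_of_le hpp.two_le hsq
  rw [sub_pow_char_of_commute p (Commute.one_right _), one_pow, sub_eq_zero] at h1
  have hu : u ^ p = 1 := mat_ext (by
    show ((u : Matrix.SpecialLinearGroup (Fin 2) F) ^ p).1 = 1
    rw [Matrix.SpecialLinearGroup.coe_pow]; exact h1)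
  have hdvd := orderOf_dvd_of_pow_eq_one hu
  rw [hord] at hdvd
  have hpq : p ≤ q := Nat.le_of_dvd (by omega)
    (hpp.dvd_of_dvd_pow (n := 2) (by rw [← hF, hf]; exact dvd_pow_self p f.pos.ne'))
  have := Nat.le_of_dvd hpp.pos hdvd
  omega

/-- The matrix minus one. -/
theorem sv_sub_self_adjoint {g : ↥(SU 3 F q)} (hg : g * g = 1) (a b : Fin 3 → F) :
    ⟪sv g a - a, b⟫ = ⟪a, sv g b - b⟫ := by
  have h : ⟪sv g a, b⟫ = ⟪a, sv g b⟫ := by
    conv_lhs => rw [← sv_herm g, ← sv_mul, hg, sv_one]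
  rw [herm_sub_left, herm_sub_right hF, h]

/-- In characteristic two an involution moves every vector along one isotropic vector. -/
theorem moves_isotropic (h2 : (2 : F) = 0) {g : ↥(SU 3 F q)} (hg : g * g = 1) (a : Fin 3 → F) :
    sv g (sv g a - a) - (sv g a - a) = 0 ∧ ⟪sv g a - a, sv g a - a⟫ = 0 := by
  have h0 : sv g (sv g a - a) - (sv g a - a) = 0 := by
    rw [sv_sub, ← sv_mul, hg, sv_one]
    funext i
    simp only [Pi.sub_apply, Pi.zero_apply]
    linear_combination (a i - sv g a i) * h2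
  exact ⟨h0, by rw [sv_sub_self_adjoint hF hg, h0, herm_zero_right hF]⟩

/-- Commuting involutions in characteristic two move along the same vector. -/
theorem moves_common (h2 : (2 : F) = 0) {g k : ↥(SU 3 F q)} (hg : g * g = 1) (hk : k * k = 1)
    (hgk : g * k = k * g) (a b : Fin 3 → F) (ha : sv g a - a ≠ 0) :
    ∃ c : F, sv k b - b = c • (sv g a - a) := by
  obtain ⟨gv, vv⟩ := moves_isotropic hF h2 hg a
  obtain ⟨-, ww⟩ := moves_isotropic hF h2 hk b
  set v := sv g a - a with hv
  set kv := sv k v - v with hkv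
  by_cases h0 : kv = 0
  · refine isotropic_prop hF ha vv ww ?_
    rw [sv_sub_self_adjoint hF hk, ← hkv, h0, herm_zero_right hF]
  · obtain ⟨-, kk⟩ := moves_isotropic hF h2 hk v
    have e : kv = sv g (sv k a - a) - (sv k a - a) := by
      rw [hkv, hv, sv_sub, sv_sub, ← sv_mul, ← sv_mul, hgk]
      abel
    have hvk : ⟪kv, v⟫ = 0 := by
      rw [e, sv_sub_self_adjoint hF hg, gv, herm_zero_right hF]
    obtain ⟨c, hc⟩ := isotropic_prop hF ha vv kk hvk
    have hc0 : c ≠ 0 := fun h => h0 (hc.trans (by rw [h, zero_smul]))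
    refine isotropic_prop hF ha vv ww ?_
    have h3 : ⟪sv k b - b, kv⟫ = 0 := by
      rw [sv_sub_self_adjoint hF hk, (moves_isotropic hF h2 hk v).1, herm_zero_right hF]
    rw [hkv] at h3
    rw [hc, herm_smul_right, mul_eq_zero] at h3
    exact h3.resolve_left (pow_ne_zero _ hc0)

/-- A subgroup isomorphic to `SU_2(q)` is the stabiliser of a unit vector. -/
theorem exists_stab_eq (hq : 4 ≤ q) (j : ↥(SU 2 F q) →* ↥(SU 3 F q)) (hj : Function.Injective j) :
    ∃ x : Fin 3 → F, ⟪x, x⟫ = 1 ∧ j.range = stab (q := q) x := by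
  classical
  suffices h : ∃ x : Fin 3 → F, ⟪x, x⟫ ≠ 0 ∧ j.range ≤ stab (q := q) x by
    obtain ⟨x, hx, hle⟩ := h
    obtain ⟨c, hc⟩ := exists_norm_eq hF (a := ⟪x, x⟫⁻¹) (by rw [inv_pow_q, herm_self_fixed hF])
    have hc0 : c ≠ 0 := fun h => by
      rw [h, zero_pow (Nat.succ_ne_zero q)] at hc; exact inv_ne_zero hx hc.symm
    have h1 : ⟪c • x, c • x⟫ = 1 := by rw [herm_self_smul, hc, inv_mul_cancel₀ hx]
    refine ⟨c • x, h1, Subgroup.eq_of_le_of_card_ge (by rwa [stab_smul hF x hc0]) ?_⟩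
    rw [card_stab_unit hF h1]
    exact (Nat.card_congr (MonoidHom.ofInjective hj).toEquiv).le
  obtain ⟨F₀, P, φ, hcard, -⟩ := exists_conj_sl_two hF
  let J : Matrix.SpecialLinearGroup (Fin 2) F₀ →* ↥(SU 3 F q) := j.comp φ.toMonoidHom
  have hJ : Function.Injective J := hj.comp φ.injective
  have hrange : j.range = J.range := by
    rw [show J = j.comp φ.toMonoidHom from rfl, MonoidHom.range_comp, (MonoidHom.range_eq_top (f := φ.toMonoidHom)).2 φ.surjective,
      ← MonoidHom.range_eq_map]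
  rw [hrange]
  by_cases h2 : (2 : F) = 0
  · have h20 : (2 : F₀) = 0 := F₀.subtype.injective (by rw [map_ofNat, map_zero]; exact h2)
    have hone : ∀ (t : F₀), CurtisTitsA.up2 t * CurtisTitsA.up2 t = 1 ∧ CurtisTitsA.lo2 t * CurtisTitsA.lo2 t = 1 :=
      fun t => by
        rw [← CurtisTitsA.up2_add, ← CurtisTitsA.lo2_add, ← two_mul, h20, zero_mul]
        exact ⟨Matrix.SpecialLinearGroup.transvection_coeff_zero _, Matrix.SpecialLinearGroup.transvection_coeff_zero _⟩
    have hinv : ∀ x, x * x = 1 → J x * J x = 1 := fun x hx => by rw [← map_mul, hx, map_one]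
    have hmove : ∀ x, x ≠ 1 → ∃ a, sv (J x) a - a ≠ 0 := fun x hx => by
      by_contra h
      push Not at h
      exact hx (hJ (by rw [map_one]; exact sv_ext fun a => by rw [sv_one]; exact sub_eq_zero.1 (h a)))
    obtain ⟨a, ha⟩ := hmove (CurtisTitsA.up2 1) (fun h => one_ne_zero (CurtisTitsA.up2_injective
      (h.trans (Matrix.SpecialLinearGroup.transvection_coeff_zero _).symm)))
    obtain ⟨b, hb⟩ := hmove (CurtisTitsA.lo2 1) (fun h => one_ne_zero (CurtisTitsA.lo2_injective
      (h.trans (Matrix.SpecialLinearGroup.transvection_coeff_zero _).symm)))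
    set v := sv (J (CurtisTitsA.up2 1)) a - a with hv
    set w := sv (J (CurtisTitsA.lo2 1)) b - b with hw
    have iu := fun t => hinv _ (hone t).1
    have il := fun t => hinv _ (hone t).2
    obtain ⟨-, vv⟩ := moves_isotropic hF h2 (iu 1) a
    obtain ⟨-, ww⟩ := moves_isotropic hF h2 (il 1) b
    rw [← hv] at vv
    rw [← hw] at ww
    have cu : ∀ t c, ∃ k : F, sv (J (CurtisTitsA.up2 t)) c - c = k • v := fun t c =>
      moves_common hF h2 (iu 1) (iu t) (by rw [← map_mul, ← map_mul, ← CurtisTitsA.up2_add, ← CurtisTitsA.up2_add,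
        add_comm]) a c ha
    have cl : ∀ t c, ∃ k : F, sv (J (CurtisTitsA.lo2 t)) c - c = k • w := fun t c =>
      moves_common hF h2 (il 1) (il t) (by rw [← map_mul, ← map_mul, ← CurtisTitsA.lo2_add, ← CurtisTitsA.lo2_add,
        add_comm]) b c hb
    have hvw : ∀ k : F, w ≠ k • v := by
      intro k hk
      have hk0 : k ≠ 0 := fun h => hb (by rw [hk, h, zero_smul])
      set g := J (CurtisTitsA.up2 1)
      set l := J (CurtisTitsA.lo2 1)
      have gv : sv g v = v := sub_eq_zero.1 (moves_isotropic hF h2 (iu 1) a).1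
      have lv : sv l v = v := by
        have lw : sv l w = w := sub_eq_zero.1 (moves_isotropic hF h2 (il 1) b).1
        rw [hk, sv_smul] at lw
        exact smul_right_injective _ hk0 lw
      have hcom : g * l = l * g := sv_ext fun c => by
        obtain ⟨k1, h1⟩ := cu 1 c
        obtain ⟨k2, h2'⟩ := cl 1 c
        rw [sub_eq_iff_eq_add] at h1 h2'
        rw [hk, smul_smul] at h2'
        rw [sv_mul, sv_mul, h1, h2', sv_add, sv_add, sv_smul, sv_smul, gv, lv, h1, h2']
        abel
      have hcom' : J (CurtisTitsA.up2 1 * CurtisTitsA.lo2 1) = J (CurtisTitsA.lo2 1 * CurtisTitsA.up2 1) := by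
        rw [map_mul, map_mul]; exact hcom
      have h := congrArg (fun X => X.1 0 0) (hJ hcom')
      simp [CurtisTitsA.up2_val, CurtisTitsA.lo2_val] at h
    obtain ⟨x, hx, hx0⟩ : ∃ x ∈ perpFam q ![v, w], x ≠ 0 := by
      refine (Submodule.ne_bot_iff _).1 fun h => ?_
      have := le_finrank_perpFam hF ![v, w]
      rw [h, finrank_bot] at this
      omega
    have xv : ⟪x, v⟫ = 0 := by simpa using (mem_perpFam hF).1 hx 0
    have xw : ⟪x, w⟫ = 0 := by simpa using (mem_perpFam hF).1 hx 1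
    refine ⟨x, fun hxx => ?_, ?_⟩
    · obtain ⟨k1, h1⟩ := isotropic_prop hF hx0 hxx vv (herm_eq_zero_comm hF xv)
      obtain ⟨k2, h2'⟩ := isotropic_prop hF hx0 hxx ww (herm_eq_zero_comm hF xw)
      have hk1 : k1 ≠ 0 := fun h => ha (by rw [h1, h, zero_smul])
      exact hvw (k2 * k1⁻¹) (by rw [h1, h2', smul_smul, inv_mul_cancel_right₀ hk1])
    · have hfix : ∀ (g : ↥(SU 3 F q)) (z : Fin 3 → F), g * g = 1 → ⟪x, z⟫ = 0 →
          (∀ c, ∃ k : F, sv g c - c = k • z) → sv g x = x := by
        intro g z hg hxz hgz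
        refine sub_eq_zero.1 (herm_nondeg hF _ fun c => ?_)
        obtain ⟨k, hk⟩ := hgz c
        rw [sv_sub_self_adjoint hF hg, hk, herm_smul_right, hxz, mul_zero]
      have htop : (stab (q := q) x).comap J = ⊤ :=
        CfsgLib.Classical.Linear.eq_top_of_transvection_mem fun i k hik t => by
          rcases CurtisTitsA.transvection_cases hik t with e | e <;> rw [e]
          · exact hfix _ v (iu t) xv (cu t)
          · exact hfix _ w (il t) xw (cl t)
      rintro _ ⟨y, rfl⟩
      exact (htop ▸ Subgroup.mem_top y : y ∈ (stab (q := q) x).comap J)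
  · -- odd characteristic: the central involution
    let ι₀ : Matrix.SpecialLinearGroup (Fin 2) F₀ := ⟨!![-1, 0; 0, -1], by simp [Matrix.det_fin_two]⟩
    have hι2 : ι₀ * ι₀ = 1 := by
      refine Subtype.ext ?_
      show (!![-1, 0; 0, -1] : Matrix (Fin 2) (Fin 2) F₀) * !![-1, 0; 0, -1] = 1
      ext i k; fin_cases i <;> fin_cases k <;> simp [Matrix.mul_apply, Fin.sum_univ_two]
    have hιc : ∀ y, ι₀ * y = y * ι₀ := fun y => by
      refine Subtype.ext ?_
      show (!![-1, 0; 0, -1] : Matrix (Fin 2) (Fin 2) F₀) * y.1 = y.1 * !![-1, 0; 0, -1]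
      ext i k; fin_cases i <;> fin_cases k <;> simp [Matrix.mul_apply, Fin.sum_univ_two]
    set g := J ι₀ with hg
    have hg2 : g * g = 1 := by rw [hg, ← map_mul, hι2, map_one]
    have hg1 : g ≠ 1 := fun h => h2 (by
      have := congrArg (fun X => X.1 0 0) (hJ (h.trans (map_one J).symm))
      simp [ι₀] at this
      have := congrArg F₀.subtype this
      simp at this
      linear_combination -this)
    let T : (Fin 3 → F) →ₗ[F] (Fin 3 → F) :=
      { toFun := sv g, map_add' := sv_add g, map_smul' := fun c v => sv_smul g c v }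
    let Ep := LinearMap.ker (T - LinearMap.id)
    let Em := LinearMap.ker (T + LinearMap.id)
    have mp : ∀ v, v ∈ Ep ↔ sv g v = v := fun v => sub_eq_zero (a := sv g v) (b := v)
    have mm : ∀ v, v ∈ Em ↔ sv g v = -v := fun v => add_eq_zero_iff_eq_neg (a := sv g v) (b := v)
    have hgg : ∀ v, sv g (sv g v) = v := fun v => by rw [← sv_mul, hg2, sv_one]
    have hc : IsCompl Ep Em := by
      refine ⟨Submodule.disjoint_def.2 fun v hv hv' => ?_, codisjoint_iff.2 (eq_top_iff.2 fun v _ => ?_)⟩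
      · have h := ((mp v).1 hv).symm.trans ((mm v).1 hv')
        funext i
        have hi := congrFun h i
        simp only [Pi.neg_apply] at hi
        have : (2 : F) * v i = 0 := by linear_combination hi
        exact (mul_eq_zero.1 this).resolve_left h2
      · rw [show v = (2 : F)⁻¹ • (v + sv g v) + (2 : F)⁻¹ • (v - sv g v) by
          rw [← smul_add, show (v + sv g v) + (v - sv g v) = (2 : F) • v by rw [two_smul]; abel, smul_smul,
            inv_mul_cancel₀ h2, one_smul]]
        refine Submodule.add_mem_sup ((mp _).2 ?_) ((mm _).2 ?_)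
        · rw [sv_smul, sv_add, hgg, add_comm]
        · rw [sv_smul, sv_sub, hgg, ← smul_neg, neg_sub]
    have horth : ∀ u ∈ Ep, ∀ v ∈ Em, ⟪u, v⟫ = 0 := by
      intro u hu v hv
      have h := sv_herm g u v
      rw [(mp u).1 hu, (mm v).1 hv, ← zero_sub v, herm_sub_right hF, herm_zero_right hF, zero_sub] at h
      have : (2 : F) * ⟪u, v⟫ = 0 := by linear_combination -h
      exact (mul_eq_zero.1 this).resolve_left h2
    have hsum := Submodule.finrank_add_eq_of_isCompl hc
    rw [Module.finrank_fin_fun] at hsum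
    have hp0 : Ep ≠ ⊥ := by
      intro h
      have hneg : ∀ v, sv g v = -v := fun v => by
        have := hc.sup_eq_top
        rw [h, bot_sup_eq] at this
        exact (mm v).1 (this ▸ Submodule.mem_top)
      have hcen : g ∈ Subgroup.center ↥(SU 3 F q) := Subgroup.mem_center_iff.2 fun k => sv_ext fun v => by
        rw [sv_mul, sv_mul, hneg, hneg, ← zero_sub v, sv_sub, show sv k 0 = 0 from Matrix.mulVec_zero _, zero_sub]
      have h3 : Nat.card ↥(Subgroup.center ↥(SU 3 F q)) ∣ 3 := by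
        rw [card_center_SU hF (by omega)]; exact Nat.gcd_dvd_left _ _
      have h4 : g ^ 3 = 1 := by
        have := orderOf_dvd_of_pow_eq_one (congrArg Subtype.val
          (pow_card_eq_one' (x := (⟨g, hcen⟩ : ↥(Subgroup.center ↥(SU 3 F q))))))
        exact orderOf_dvd_iff_pow_eq_one.1 (this.trans h3)
      rw [pow_succ, pow_two, hg2, one_mul] at h4
      exact hg1 h4
    have hm0 : Em ≠ ⊥ := by
      intro h
      refine hg1 (sv_ext fun v => ?_)
      have := hc.sup_eq_top
      rw [h, sup_bot_eq] at this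
      rw [sv_one]
      exact (mp v).1 (this ▸ Submodule.mem_top)
    obtain ⟨E, E', hEE, hE1, hEinv⟩ : ∃ E E' : Submodule F (Fin 3 → F), E ⊔ E' = ⊤ ∧ Module.finrank F E = 1 ∧
        (∀ u ∈ E, (∀ y, sv (J y) u ∈ E) ∧ ∀ v ∈ E', ⟪u, v⟫ = 0) := by
      have a1 := Nat.pos_of_ne_zero (fun h => hp0 (Submodule.finrank_eq_zero.1 h))
      have a2 := Nat.pos_of_ne_zero (fun h => hm0 (Submodule.finrank_eq_zero.1 h))
      have hy : ∀ y v, sv g (sv (J y) v) = sv (J y) (sv g v) := fun y v => by
        rw [← sv_mul, ← sv_mul, hg, ← map_mul, ← map_mul, hιc]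
      rcases Nat.lt_or_ge (Module.finrank F Ep) 2 with h | h
      · exact ⟨Ep, Em, hc.sup_eq_top, by omega, fun u hu => ⟨fun y => (mp _).2 (by rw [hy, (mp u).1 hu]),
          fun v hv => horth u hu v hv⟩⟩
      · refine ⟨Em, Ep, by rw [sup_comm]; exact hc.sup_eq_top, by omega, fun u hu => ⟨fun y => (mm _).2 ?_,
          fun v hv => herm_eq_zero_comm hF (horth v hv u hu)⟩⟩
        rw [hy, (mm u).1 hu, ← zero_sub u, sv_sub, show sv (J y) 0 = 0 from Matrix.mulVec_zero _, zero_sub]
    obtain ⟨⟨x, hxE⟩, hx0, hspan⟩ := finrank_eq_one_iff'.1 hE1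
    have hx0' : x ≠ 0 := fun h => hx0 (Subtype.ext h)
    have hspan' : ∀ u ∈ E, ∃ c : F, c • x = u := fun u hu => by
      obtain ⟨c, hc⟩ := hspan ⟨u, hu⟩
      exact ⟨c, congrArg Subtype.val hc⟩
    refine ⟨x, fun hxx => hx0' (herm_nondeg hF _ fun v => ?_), ?_⟩
    · obtain ⟨e, he, e', he', rfl⟩ := Submodule.mem_sup.1 (hEE.ge (Submodule.mem_top (x := v)))
      obtain ⟨c, rfl⟩ := hspan' e he
      rw [herm_add_right hF, herm_smul_right, hxx, mul_zero, (hEinv x hxE).2 e' he', add_zero]
    · choose χ hχ using fun y => hspan' _ ((hEinv x hxE).1 y)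
      have hχ0 : ∀ y, χ y ≠ 0 := fun y h => hx0' (by
        have := hχ y
        rw [h, zero_smul] at this
        rw [← sv_inv_sv (J y) x, ← this, show sv (J y)⁻¹ 0 = 0 from Matrix.mulVec_zero _])
      let X : Matrix.SpecialLinearGroup (Fin 2) F₀ →* Fˣ := MonoidHom.mk' (fun y => Units.mk0 (χ y) (hχ0 y))
        fun y z => Units.ext (smul_left_injective F hx0' (by
          show χ (y * z) • x = (χ y * χ z) • x
          rw [hχ, map_mul, sv_mul, ← hχ z, sv_smul, ← hχ y, smul_smul, mul_comm]))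
      have hperf : commutator (Matrix.SpecialLinearGroup (Fin 2) F₀) = ⊤ :=
        CfsgLib.Classical.Linear.commutator_sl_fin_eq_top 2 fun _ =>
          CfsgLib.Classical.Linear.exists_sq_ne_one_of_four_le (by rw [hcard]; exact hq)
      rintro _ ⟨y, rfl⟩
      have hy : y ∈ X.ker := Abelianization.commutator_subset_ker X (hperf ▸ Subgroup.mem_top y)
      have hy1 : χ y = 1 := congrArg Units.val hy
      show sv (J y) x = x
      rw [← hχ y, hy1, one_smul]

end CfsgLib.Phan
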