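import Mathlib
import Cfsg.Agent.Phan.Four.Vectors

/-!
# Contracting the cycles of the orthogonality graph in dimension four, `q ≥ 4`

Besides the cycles with a common orthogonal unit vector, the four-cycles whose opposite vertices span
non-degenerate planes are closed, because the two homomorphisms commute on the blocks of two complementary
coordinate planes. For `q ≥ 4` these generate all cycles.
-/

set_option autoImplicit false

namespace CfsgLib.Phan

open Cfsg CfsgLib.Unitary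

variable {F : Type*} [Field F] [Fintype F] {q : ℕ}

local notation "⟪" u ", " v "⟫" => hermForm 4 F q u v

namespace Four

/-- The two homomorphisms commute on complementary planes of some frame. -/
def Comm {G : Type*} [Group G] (D : Amalgam 4 F q G) : Prop :=
  ∃ f : Fin 4 → Fin 4 → F, Orthonorm q f ∧ f 0 = D.e0 ∧ f 3 = D.eL ∧
    ∀ (x y : ↥(SU 4 F q)) (hx : x ∈ stab D.eL) (hy : y ∈ stab D.e0),
      sv x (f 2) = f 2 → sv y (f 1) = f 1 → Commute (D.A ⟨x, hx⟩) (D.B ⟨y, hy⟩)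

open Amalgam (bh P P_norm gA_fst gB_fst gB_inter mem_gA_of mem_gB_of Eqv)

variable {G : Type*} [Group G] (D : Amalgam 4 F q G) (hF : Fintype.card F = q ^ 2)
include hF

theorem eqv_trans {p r a b c : Fin 4 → F} (hc : ⟪c, c⟫ = 1) (hcp : ⟪c, p⟫ = 0) (hcr : ⟪c, r⟫ = 0)
    (h1 : D.Eqv p r a c) (h2 : D.Eqv p r c b) : D.Eqv p r a b := by
  intro γ α ρ β' ρ' hp ha hα har hρ hb hβ hbr hρ'
  obtain ⟨x, -, hadj, hP⟩ := exists_adj D hF γ hc (by rw [hp]; exact herm_eq_zero_comm hF hcp)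
  obtain ⟨y, -, hadj2, hP2⟩ := exists_adj D hF (γ * x * D.bh) (w := r) (by rw [← hρ]; exact D.P_norm ρ)
    (by rw [hP]; exact hcr)
  exact Amalgam.Sim.trans D (h1 γ α ρ _ _ hp ha hα har hρ hadj hP hadj2 hP2)
    (h2 γ _ _ β' ρ' hp hadj hP hadj2 hP2 hb hβ hbr hρ')

theorem eqv_mid_orth {p r a b : Fin 4 → F} (hab : ⟪a, b⟫ = 0) : D.Eqv p r a b := by
  intro γ α ρ β' ρ' hp ha hα har hρ hb hβ hbr hρ'
  have h1 : D.Adj β' α := triangle D hF (Adj.symm D hF hb) ha
    (by rw [hβ, hα]; exact herm_eq_zero_comm hF hab)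
  have h2 : D.Adj β' ρ := triangle D hF h1 har
    (by rw [hρ, ← hρ']; exact Amalgam.Adj.orth D hF hbr)
  exact D.star h2 hbr (hρ.trans hρ'.symm)

/-- Proportional end points. -/
theorem eqv_prop (hq : 3 ≤ q) {p r a b : Fin 4 → F} (hp : ⟪p, p⟫ = 1) (hr : r = ⟪r, p⟫ • p) (ha : ⟪a, a⟫ = 1)
    (hb : ⟪b, b⟫ = 1) (hap : ⟪a, p⟫ = 0) (hbp : ⟪b, p⟫ = 0) : D.Eqv p r a b := by
  obtain ⟨c, hc, cp, ca, cb⟩ := exists_unit_perp_avoid hF hq (x := p) (y := a) (h := b) hp ha
    (herm_eq_zero_comm hF hap) (κ := 1) (Or.inl one_ne_zero)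
  have hperp : ∀ v, ⟪v, p⟫ = 0 → ⟪v, r⟫ = 0 := fun v h => by rw [hr, herm_smul_right, h, mul_zero]
  obtain ⟨d, hd, dp, dc, db⟩ := exists_unit_perp_rest hF (x := b) (y := p) (z := c) hp hc
    (herm_eq_zero_comm hF cp) (by
      rw [rest, hb, hbp, zero_pow (Nat.succ_ne_zero q), sub_zero, sub_ne_zero, herm_conj hF c b, ← pow_mul,
        mul_comm, pow_mul, norm_pow_q hF]
      exact Ne.symm cb)
  exact eqv_trans D hF hc cp (hperp _ cp) (eqv_mid_orth D hF (herm_eq_zero_comm hF ca))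
    (eqv_trans D hF hd dp (hperp _ dp) (eqv_mid_orth D hF (herm_eq_zero_comm hF dc)) (eqv_mid_orth D hF db))

/-- End points spanning a non-degenerate plane. -/
theorem eqv_nondeg (hC : Comm D) {p r a b : Fin 4 → F} (hp : ⟪p, p⟫ = 1) (hr : ⟪r, r⟫ = 1)
    (hN : ⟪r, p⟫ ^ (q + 1) ≠ 1) (ha : ⟪a, a⟫ = 1) (hb : ⟪b, b⟫ = 1) (hap : ⟪a, p⟫ = 0) (har : ⟪a, r⟫ = 0)
    (hbp : ⟪b, p⟫ = 0) (hbr : ⟪b, r⟫ = 0) : D.Eqv p r a b := by
  obtain ⟨f, hf, hf0, hf3, hcomm⟩ := hC
  have hn : ∀ i, ⟪f i, f i⟫ = 1 := fun i => by simpa using hf i i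
  have ho : ∀ i j, i ≠ j → ⟪f i, f j⟫ = 0 := fun i j h => by simpa [h] using hf i j
  obtain ⟨e, s, hs, he, hep, hrdec, -⟩ := exists_partner_unit hF hp hr hN
  intro γ α ρ β' ρ' hγp hγα hα hαρ hρ hγβ hβ hβρ hρ'
  obtain ⟨g, g3, g2⟩ := exists_map_two hF (hn 3) (hn 2) (ho 3 2 (by decide))
    (u' := sv γ.1⁻¹ p) (v' := sv γ.1⁻¹ e) (by rw [sv_herm, hp]) (by rw [sv_herm, he])
    (by rw [sv_herm]; exact herm_eq_zero_comm hF hep)
  have hgL : g ∈ stab (q := q) D.eL := by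
    rw [mem_stab, ← hf3, g3, hf3, ← hγp, P, sv_inv_sv]
  set η := γ * (g, D.A ⟨g, hgL⟩) with hη
  have hsim : D.Sim γ η := by
    show γ⁻¹ * η ∈ D.gA
    rw [hη, inv_mul_cancel_left]; exact D.mem_gA_of hgL
  have e3 : sv η.1 (f 3) = p := by rw [hη, Prod.fst_mul, sv_mul, g3, sv_sv_inv]
  have e2 : sv η.1 (f 2) = e := by rw [hη, Prod.fst_mul, sv_mul, g2, sv_sv_inv]
  have hηp : D.P η = p := by rw [P, ← hf3, e3]
  set r₀ := sv η.1⁻¹ r with hr₀
  have hrη : sv η.1 r₀ = r := sv_sv_inv _ _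
  have hr₀dec : r₀ = ⟪r, p⟫ • f 3 + s • f 2 := by
    rw [hr₀, sv_inv_eq]
    rw [sv_add, sv_smul, sv_smul, e3, e2]
    exact hrdec.symm
  have hr₀o : ∀ i : Fin 4, i = 0 ∨ i = 1 → ⟪f i, r₀⟫ = 0 := by
    rintro i (rfl | rfl) <;>
      rw [hr₀dec, herm_add_right hF, herm_smul_right, herm_smul_right,
        ho _ _ (by decide), ho _ _ (by decide), mul_zero, mul_zero, add_zero]
  have hr₀1 : ⟪r₀, r₀⟫ = 1 := by rw [hr₀, sv_herm, hr]
  obtain ⟨yy, y0, y1, y3⟩ := exists_map_three hF (hn 0) (hn 1) (hn 3) (ho 0 1 (by decide)) (ho 0 3 (by decide))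
    (ho 1 3 (by decide)) (hn 0) (hn 1) hr₀1 (ho 0 1 (by decide)) (hr₀o 0 (Or.inl rfl)) (hr₀o 1 (Or.inr rfl))
  have hy0 : yy ∈ stab (q := q) D.e0 := by rw [mem_stab, ← hf0, y0]
  set Y : ↥(SU 4 F q) × G := (yy, D.B ⟨yy, hy0⟩) with hY
  have hYP : D.P (η * Y) = r := by rw [P, Prod.fst_mul, sv_mul, ← hf3, y3, hrη]
  have fix : ∀ (k : ↥(SU 4 F q)) (w : Fin 4 → F), (∀ j, ⟪w, f j⟫ ≠ 0 → sv k (f j) = f j) → sv k w = w := by
    intro k w hw
    conv_lhs => rw [expand_orthonorm hF hf w]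
    conv_rhs => rw [expand_orthonorm hF hf w]
    rw [sv, Matrix.mulVec_sum]
    refine Finset.sum_congr rfl fun j _ => ?_
    by_cases hj : ⟪w, f j⟫ = 0
    · simp [hj]
    · exact (sv_smul k _ _).trans (by rw [hw j hj])
  have main : ∀ w, ⟪w, w⟫ = 1 → ⟪w, p⟫ = 0 → ⟪w, r⟫ = 0 → ∀ α₁ ρ₁, D.Adj η α₁ → D.P α₁ = w →
      D.Adj α₁ ρ₁ → D.P ρ₁ = r → D.Sim (η * Y) ρ₁ := by
    intro w hw hwp hwr α₁ ρ₁ h1 h2 h3 h4
    set c' := sv η.1⁻¹ w with hc'
    have hcw : sv η.1 c' = w := sv_sv_inv _ _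
    have hc'1 : ⟪c', c'⟫ = 1 := by rw [hc', sv_herm, hw]
    have hwe : ⟪w, e⟫ = 0 := perp_partner hF hs hrdec hwp hwr
    have hc'3 : ⟪c', f 3⟫ = 0 := by rw [← sv_herm η.1, hcw, e3]; exact hwp
    have hc'2 : ⟪c', f 2⟫ = 0 := by rw [← sv_herm η.1, hcw, e2]; exact hwe
    obtain ⟨xx, x2, x3, x1⟩ := exists_map_three hF (hn 2) (hn 3) (hn 1) (ho 2 3 (by decide)) (ho 2 1 (by decide))
      (ho 3 1 (by decide)) (hn 2) (hn 3) hc'1 (ho 2 3 (by decide)) (herm_eq_zero_comm hF hc'2)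
      (herm_eq_zero_comm hF hc'3)
    have hxL : xx ∈ stab (q := q) D.eL := by rw [mem_stab, ← hf3, x3]
    have hcom := hcomm xx yy hxL hy0 x2 y1
    have hxy' : xx * yy = yy * xx := by
      have hcoef : ∀ i : Fin 4, sv (xx * yy) (f i) = sv (yy * xx) (f i) := by
        intro i
        rw [sv_mul, sv_mul]
        by_cases hi : i = 0 ∨ i = 1
        · have hyi : sv yy (f i) = f i := by rcases hi with rfl | rfl <;> assumption
          rw [hyi]
          refine (fix yy _ fun j hj => ?_).symm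
          by_contra hne'
          refine hj ?_
          have hjj : sv xx (f j) = f j := by
            fin_cases j
            · exact absurd y0 hne'
            · exact absurd y1 hne'
            · exact x2
            · exact x3
          rw [← hjj, sv_herm, ho]
          rintro rfl
          exact hne' hyi
        · simp only [not_or] at hi
          have hxi : sv xx (f i) = f i := by
            fin_cases i <;> first | exact absurd rfl hi.1 | exact absurd rfl hi.2 | assumption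
          rw [hxi]
          refine fix xx _ fun j hj => ?_
          by_contra hne'
          refine hj ?_
          have hjj : sv yy (f j) = f j := by
            fin_cases j
            · exact y0
            · exact y1
            · exact absurd x2 hne'
            · exact absurd x3 hne'
          rw [← hjj, sv_herm, ho]
          rintro rfl
          exact hne' hxi
      refine sv_ext fun v => ?_
      conv_lhs => rw [expand_orthonorm hF hf v, sv, Matrix.mulVec_sum]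
      conv_rhs => rw [expand_orthonorm hF hf v, sv, Matrix.mulVec_sum]
      exact Finset.sum_congr rfl fun i _ =>
        (sv_smul (xx * yy) _ _).trans ((congrArg _ (hcoef i)).trans (sv_smul (yy * xx) _ _).symm)
    set X : ↥(SU 4 F q) × G := (xx, D.A ⟨xx, hxL⟩) with hXdef
    have hXmem : X ∈ D.gA := D.mem_gA_of hxL
    have hXY : X * Y = Y * X := Prod.ext hxy' hcom.eq
    obtain ⟨a₀, -, hA1, hA2⟩ := exists_adj D hF η (w := sv η.1 (f 1)) (by rw [sv_herm]; exact hn 1)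
      (by rw [hηp, ← e3, sv_herm]; exact ho 3 1 (by decide))
    obtain ⟨a₁, -, hB1, hB2⟩ := exists_adj D hF (η * a₀ * D.bh) (w := r) hr
      (by rw [hA2, ← hrη, sv_herm]; exact hr₀o 1 (Or.inr rfl))
    have hu0 : ∀ v, ⟪sv η.1⁻¹ v, f 0⟫ = 0 → ⟪v, sv η.1 D.e0⟫ = 0 := by
      intro v hv
      rw [← sv_sv_inv η.1 v, sv_herm, ← hf0]; exact hv
    have i2 := InB.step D hF (InB.step D hF (InB.of_sim D (D.sim_refl η)) hA1
      (hu0 _ (by rw [hA2, sv_inv_sv]; exact ho 1 0 (by decide)))) hB1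
      (hu0 _ (by rw [hB2]; exact herm_eq_zero_comm hF (hr₀o 0 (Or.inl rfl))))
    obtain ⟨bb, hbb, hbs⟩ := i2
    have hbY : D.Sim (η * Y) (η * a₀ * D.bh * a₁ * D.bh) := by
      refine Amalgam.Sim.trans D ?_ hbs
      show (η * Y)⁻¹ * (η * bb) ∈ D.gA
      rw [mul_inv_rev, mul_assoc, inv_mul_cancel_left]
      refine D.gB_inter (D.gB.mul_mem (D.gB.inv_mem (D.mem_gB_of hy0)) hbb) ?_
      have hP : D.P (η * bb) = r := (Amalgam.Sim.P_eq D hbs).trans hB2
      rw [P, Prod.fst_mul, sv_mul] at hP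
      rw [mem_stab, Prod.fst_mul, sv_mul, show sv bb.1 D.eL = r₀ by rw [hr₀, ← hP, sv_inv_sv], Prod.fst_inv,
        sv_inv_eq]
      rw [← hf3, y3]
    set T := η * X * η⁻¹ with hT
    have hTη : D.Sim η (T * η) := by
      show η⁻¹ * (T * η) ∈ D.gA
      simpa [hT, mul_assoc] using hXmem
    have hA1' := Amalgam.Adj.congr_left D (Amalgam.Adj.mul_left D hA1 T) (Amalgam.Sim.symm D hTη)
    have hA2' : D.P (T * (η * a₀ * D.bh)) = w := by
      show sv (T.1 * (η * a₀ * D.bh).1) D.eL = _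
      rw [sv_mul, show sv (η * a₀ * D.bh).1 D.eL = sv η.1 (f 1) from hA2, hT, Prod.fst_mul, Prod.fst_mul,
        Prod.fst_inv, sv_mul, sv_mul, sv_inv_sv, x1, hcw]
    have hs1' := D.star h1 hA1' (h2.trans hA2'.symm)
    have hB1' := Amalgam.Adj.congr_left D (Amalgam.Adj.mul_left D hB1 T) (Amalgam.Sim.symm D hs1')
    have hfin : D.Sim (η * Y) (T * (η * Y)) := by
      show (η * Y)⁻¹ * (T * (η * Y)) ∈ D.gA
      rw [show (η * Y)⁻¹ * (T * (η * Y)) = Y⁻¹ * (X * Y) by simp [hT, mul_assoc], hXY, inv_mul_cancel_left]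
      exact hXmem
    have hs2 := Amalgam.Sim.trans D hfin (Amalgam.Sim.mul_left D hbY T)
    refine Amalgam.Sim.trans D hs2 (D.star hB1' h3 ?_)
    rw [← Amalgam.Sim.P_eq D hs2, hYP, h4]
  exact Amalgam.Sim.trans D (Amalgam.Sim.symm D (main a ha hap har _ _
      (Amalgam.Adj.congr_left D hγα hsim) hα hαρ hρ))
    (main b hb hbp hbr _ _ (Amalgam.Adj.congr_left D hγβ hsim) hβ hβρ hρ')

theorem norm_comm (u v : Fin 4 → F) : ⟪u, v⟫ ^ (q + 1) = ⟪v, u⟫ ^ (q + 1) := by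
  rw [herm_conj hF v u, ← pow_mul, mul_comm, pow_mul, norm_pow_q hF]

/-- Paths through two suitable points `x ⊥ a`, `y ⊥ b` identify the midpoints `a` and `b`. -/
theorem eqv_via (hq : 4 ≤ q) (hC : Comm D) {p r a b x y : Fin 4 → F} (hp : ⟪p, p⟫ = 1) (hr : ⟪r, r⟫ = 1)
    (ha : ⟪a, a⟫ = 1) (hb : ⟪b, b⟫ = 1) (hap : ⟪a, p⟫ = 0) (har : ⟪a, r⟫ = 0) (hbp : ⟪b, p⟫ = 0)
    (hbr : ⟪b, r⟫ = 0) (hx : ⟪x, x⟫ = 1) (hy : ⟪y, y⟫ = 1) (hxa : ⟪x, a⟫ = 0) (hyb : ⟪y, b⟫ = 0)
    (hxp : ⟪x, p⟫ ^ (q + 1) ≠ 1) (hxr : ⟪x, r⟫ ^ (q + 1) ≠ 1) (hyp : ⟪y, p⟫ ^ (q + 1) ≠ 1)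
    (hyr : ⟪y, r⟫ ^ (q + 1) ≠ 1) (hxy : ⟪y, x⟫ ^ (q + 1) ≠ 1)
    (hc : ∃ c, ⟪c, c⟫ = 1 ∧ ⟪c, p⟫ = 0 ∧ ⟪c, x⟫ = 0 ∧ ⟪c, y⟫ = 0)
    (hd : ∃ d, ⟪d, d⟫ = 1 ∧ ⟪d, r⟫ = 0 ∧ ⟪d, x⟫ = 0 ∧ ⟪d, y⟫ = 0) : D.Eqv p r a b := by
  obtain ⟨c, hc1, cp, cx, cy⟩ := hc
  obtain ⟨d, hd1, dr, dx, dy⟩ := hd
  have hax := herm_eq_zero_comm hF hxa
  have hby := herm_eq_zero_comm hF hyb
  intro γ α ρ β' ρ' hγp hγα hα hαρ hρ hγβ hβ hβρ hρ'
  obtain ⟨a₁, -, hγc, hPc⟩ := exists_adj D hF γ hc1 (by rw [hγp]; exact herm_eq_zero_comm hF cp)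
  obtain ⟨a₂, -, hcx, hPx⟩ := exists_adj D hF (γ * a₁ * D.bh) hx (by rw [hPc]; exact cx)
  obtain ⟨a₃, -, hcy, hPy⟩ := exists_adj D hF (γ * a₁ * D.bh) hy (by rw [hPc]; exact cy)
  set ξ := γ * a₁ * D.bh * a₂ * D.bh
  set υ := γ * a₁ * D.bh * a₃ * D.bh
  obtain ⟨a₄, -, hxd, hPd1⟩ := exists_adj D hF ξ hd1 (by rw [hPx]; exact herm_eq_zero_comm hF dx)
  obtain ⟨a₅, -, hyd, hPd2⟩ := exists_adj D hF υ hd1 (by rw [hPy]; exact herm_eq_zero_comm hF dy)
  obtain ⟨a₆, -, hdr, hPr1⟩ := exists_adj D hF (ξ * a₄ * D.bh) hr (by rw [hPd1]; exact dr)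
  set ρ₁ := ξ * a₄ * D.bh * a₆ * D.bh
  -- `a` and `b`
  obtain ⟨a₇, -, hαx, hPαx⟩ := exists_adj D hF α hx (by rw [hα]; exact hax)
  have hξ : D.Sim (α * a₇ * D.bh) ξ := eqv_nondeg D hF hC hp hx hxp ha hc1 hap hax cp cx γ α _ _ _ hγp hγα hα
    hαx hPαx hγc hPc hcx hPx
  have h1 : D.Sim ρ ρ₁ := eqv_nondeg D hF hC hx hr (by rw [norm_comm hF]; exact hxr) ha hd1 hax har dx dr ξ α ρ _ _
    hPx (Adj.symm D hF (Amalgam.Adj.congr_right D hαx hξ)) hα hαρ hρ hxd hPd1 hdr hPr1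
  -- the two points adjacent to `d`
  have hs : D.Sim (ξ * a₄ * D.bh) (υ * a₅ * D.bh) := by
    by_cases hcd : proj q c d = 0
    · exact eqv_prop D hF (by omega) hc1 (by rw [eq_add_proj q c d, hcd, add_zero] ; simp [herm_smul_left, hc1])
        hx hy (herm_eq_zero_comm hF cx) (herm_eq_zero_comm hF cy) _ _ _ _ _ hPc hcx hPx hxd hPd1 hcy hPy hyd hPd2
    · refine eqv_nondeg D hF hC hc1 hd1 (fun hN => hcd ?_) hx hy (herm_eq_zero_comm hF cx)
        (herm_eq_zero_comm hF dx) (herm_eq_zero_comm hF cy) (herm_eq_zero_comm hF dy) _ _ _ _ _ hPc hcx hPx hxd hPd1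
        hcy hPy hyd hPd2
      obtain ⟨e, s, hs, he, hex, hydec, -⟩ := exists_partner_unit hF hx hy hxy
      set z := proj q c d with hz
      have hzc : ⟪z, c⟫ = 0 := proj_perp hc1
      have hzx : ⟪z, x⟫ = 0 := proj_orth dx cx
      have hze : ⟪z, e⟫ = 0 := perp_partner hF hs hydec hzx (proj_orth dy cy)
      have hzz : ⟪z, z⟫ = 0 := by rw [hz, herm_proj_self hF hc1 hd1, hN, sub_self]
      have hce : ⟪c, e⟫ = 0 := perp_partner hF hs hydec cx cy
      obtain ⟨u, hu, uc, ux, ue⟩ := exists_fourth hF hc1 hx he cx hce (herm_eq_zero_comm hF hex)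
      have hfr : Orthonorm q ![c, x, e, u] := by
        intro i j
        fin_cases i <;> fin_cases j <;>
          simp [hc1, hx, he, hu, cx, hce, hex, uc, ux, ue, herm_eq_zero_comm hF cx, herm_eq_zero_comm hF hce,
            herm_eq_zero_comm hF hex, herm_eq_zero_comm hF uc, herm_eq_zero_comm hF ux, herm_eq_zero_comm hF ue]
      have hzu : z = ⟪z, u⟫ • u := by
        conv_lhs => rw [expand_orthonorm hF hfr z, Fin.sum_univ_four]
        simp [hzc, hzx, hze]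
      rw [hzu, herm_self_smul, hu, mul_one] at hzz
      rw [hzu, eq_zero_of_pow_eq_zero hzz, zero_smul]
  have hdr' : D.Adj (υ * a₅ * D.bh) ρ₁ := Amalgam.Adj.congr_left D hdr hs
  obtain ⟨a₈, -, hβy, hPβy⟩ := exists_adj D hF β' hy (by rw [hβ]; exact hby)
  have hυ : D.Sim (β' * a₈ * D.bh) υ := eqv_nondeg D hF hC hp hy hyp hb hc1 hbp hby cp cy γ β' _ _ _ hγp hγβ hβ
    hβy hPβy hγc hPc hcy hPy
  have h2 : D.Sim ρ' ρ₁ := eqv_nondeg D hF hC hy hr (by rw [norm_comm hF]; exact hyr) hb hd1 hby hbr dy dr υ β' ρ' _ _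
    hPy (Adj.symm D hF (Amalgam.Adj.congr_right D hβy hυ)) hβ hβρ hρ' hyd hPd2 hdr' hPr1
  exact Amalgam.Sim.trans D h1 (Amalgam.Sim.symm D h2)

/-- End points spanning a tangent plane with radical `z`, two midpoints differing by a multiple of `z`. -/
theorem eqv_tangent (hq : 4 ≤ q) (hC : Comm D) {p r a b z : Fin 4 → F} {κ l μ : F} (hp : ⟪p, p⟫ = 1)
    (hr : ⟪r, r⟫ = 1) (ha : ⟪a, a⟫ = 1) (hb : ⟪b, b⟫ = 1) (hap : ⟪a, p⟫ = 0) (hrdec : r = κ • p + z)
    (hzp : ⟪z, p⟫ = 0) (hza : ⟪z, a⟫ = 0) (hzz : ⟪z, z⟫ = 0) (hz0 : z ≠ 0) (hbdec : b = l • a + μ • z)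
    (h4 : q = 4 → μ ^ (q + 1) ≠ 1) : D.Eqv p r a b := by
  have hW : IsNondeg q (perpIn q (perpIn q ⊤ p) a) :=
    isNondeg_perpIn hF (isNondeg_perpIn hF (isNondeg_top hF) trivial hp) (mem_perpIn.2 ⟨trivial, hap⟩) ha
  obtain ⟨h, hh, hhh, hzh⟩ := exists_partner hF hW
    (mem_perpIn.2 ⟨mem_perpIn.2 ⟨trivial, hzp⟩, hza⟩) hz0 hzz
  have hhp : ⟪h, p⟫ = 0 := (mem_perpIn.1 (mem_perpIn.1 hh).1).2
  have hha : ⟪h, a⟫ = 0 := (mem_perpIn.1 hh).2
  have hhz : ⟪h, z⟫ = 1 := by rw [herm_conj hF z h, hzh, one_pow]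
  have haz := herm_eq_zero_comm hF hza
  have hah := herm_eq_zero_comm hF hha
  have har : ⟪a, r⟫ = 0 := by rw [hrdec, herm_add_right hF, herm_smul_right, hap, haz, mul_zero, add_zero]
  have hbp : ⟪b, p⟫ = 0 := by rw [hbdec, herm_add_left, herm_smul_left, herm_smul_left, hap, hzp]; ring
  have hbr : ⟪b, r⟫ = 0 := by
    rw [hrdec, herm_add_right hF, herm_smul_right, hbp, hbdec, herm_add_left, herm_smul_left, herm_smul_left,
      haz, hzz]
    ring
  have hl : l ^ (q + 1) = 1 := by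
    rw [← hb, hbdec]
    simp only [herm_add_left, herm_add_right hF, herm_smul_left, herm_smul_right, ha, haz, hza, hzz]
    ring
  obtain ⟨n, hn, hn0, hn1⟩ := exists_fixed_avoid hF (by omega : 3 ≤ q)
  obtain ⟨k, hk⟩ := exists_norm_eq hF hn
  have hk0 : k ≠ 0 := fun h0 => hn0 (by rw [← hk, h0, zero_pow (Nat.succ_ne_zero q)])
  set m := μ ^ (q + 1) with hm
  have hmq : m ^ q = m := norm_pow_q hF μ
  have h2q : (2 : F) ^ q = 2 := by rw [show (2 : F) = 1 + 1 by norm_num, add_pow_q hF, one_pow]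
  obtain ⟨w, hw, hw1, hw2⟩ := exists_trace_norm hF hq (T := 2 - n * m) (c := 1) (d := 1 - n ^ 2 * m)
    (by rw [sub_pow_q hF, h2q, mul_pow, hn, hmq]) (fun h4q => by
      have h2 : (2 : F) = 0 := by
        subst h4q
        have h := FiniteField.cast_card_eq_zero F
        rw [hF] at h
        push_cast at h
        exact eq_zero_of_pow_eq_zero (n := 4) (by linear_combination h)
      by_cases hm0 : m = 0
      · exact Or.inl (by rw [hm0]; ring)
      refine Or.inr ⟨fun h0 => mul_ne_zero hn0 hm0 (by linear_combination h2 - h0), fun h => h4 h4q ?_⟩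
      have e : n ^ 2 * m * (m - 1) = 0 := by linear_combination (-1 : F) * h + (2 * n * m - 2) * h2
      exact sub_eq_zero.1 ((mul_eq_zero.1 e).resolve_left (mul_ne_zero (pow_ne_zero 2 hn0) hm0)))
  obtain ⟨Y, hY⟩ := exists_trace_eq hF (a := 1 - n * m) (by rw [sub_pow_q hF, one_pow, mul_pow, hn, hmq])
  set X := w - Y ^ q with hX
  have hXtr : X + X ^ q = 1 := by
    rw [hX, sub_pow_q hF, pow_q_q hF]
    linear_combination hw - hY
  set K := (k ^ q)⁻¹ with hK
  have hKk : K * k ^ q = 1 := inv_mul_cancel₀ (pow_ne_zero _ hk0)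
  have hKq : K ^ q * k = 1 := by
    have := congrArg (· ^ q) hKk
    simpa [mul_pow, pow_q_q hF] using this
  set x := (X * K) • z + k • h with hx
  set u := -(k * μ ^ q * l) with hu
  set y := u • a + (Y * K) • z + k • h with hy
  have hwY : X + Y ^ q = w := sub_add_cancel _ _
  have hxx : ⟪x, x⟫ = 1 := by
    simp only [hx, herm_add_left, herm_add_right hF, herm_smul_left, herm_smul_right, hzz, hhh, hzh, hhz, mul_pow]
    linear_combination hXtr + X * hKk + X ^ q * hKq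
  have huu : u ^ (q + 1) = n * m := by
    rw [hu, pow_succ, neg_pow_q hF, hm, ← hk]
    simp only [mul_pow, pow_q_q hF, pow_succ]
    linear_combination (μ ^ q * μ * k ^ q * k) * hl
  have hyy : ⟪y, y⟫ = 1 := by
    simp only [hy, herm_add_left, herm_add_right hF, herm_smul_left, herm_smul_right, ha, haz, hah, hza, hha, hzz,
      hhh, hzh, hhz, mul_pow]
    linear_combination hY + Y * hKk + Y ^ q * hKq + huu
  have hyx : ⟪y, x⟫ = w ^ q := by
    simp only [hx, hy, herm_add_left, herm_add_right hF, herm_smul_left, herm_smul_right, haz, hah, hzz, hhh, hzh,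
      hhz, mul_pow]
    rw [← hwY, add_pow_q hF, pow_q_q hF]
    linear_combination X ^ q * hKq + Y * hKk
  have hxa : ⟪x, a⟫ = 0 := by rw [hx, herm_add_left, herm_smul_left, herm_smul_left, hza, hha]; ring
  have hxp : ⟪x, p⟫ = 0 := by rw [hx, herm_add_left, herm_smul_left, herm_smul_left, hzp, hhp]; ring
  have hyp : ⟪y, p⟫ = 0 := by
    rw [hy, herm_add_left, herm_add_left, herm_smul_left, herm_smul_left, herm_smul_left, hzp, hhp, hap]; ring
  have hxr : ⟪x, r⟫ = k := by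
    rw [hrdec, herm_add_right hF, herm_smul_right, hxp, hx, herm_add_left, herm_smul_left, herm_smul_left, hzz, hhz]
    ring
  have hyr : ⟪y, r⟫ = k := by
    rw [hrdec, herm_add_right hF, herm_smul_right, hyp, hy, herm_add_left, herm_add_left, herm_smul_left,
      herm_smul_left, herm_smul_left, hzz, hhz, haz]
    ring
  have hyb : ⟪y, b⟫ = 0 := by
    rw [hbdec]
    simp only [hy, herm_add_left, herm_add_right hF, herm_smul_left, herm_smul_right, ha, haz, hza, hha, hzz, hhz]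
    rw [hu]
    linear_combination (-(k * μ ^ q)) * hl
  have hnk : k ^ (q + 1) ≠ 1 := by rw [hk]; exact hn1
  have hwn : ⟪y, x⟫ ^ (q + 1) = w ^ (q + 1) := by
    rw [hyx, ← pow_mul, mul_comm, pow_mul, norm_pow_q hF]
  refine eqv_via D hF hq hC hp hr ha hb hap har hbp hbr hxx hyy hxa hyb
    (by rw [hxp, zero_pow (Nat.succ_ne_zero q)]; exact zero_ne_one) (by rw [hxr]; exact hnk)
    (by rw [hyp, zero_pow (Nat.succ_ne_zero q)]; exact zero_ne_one) (by rw [hyr]; exact hnk)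
    (by rw [hwn]; exact hw1) ?_ ?_
  · refine exists_unit_perp_rest hF (x := y) (y := p) (z := x) hp hxx (herm_eq_zero_comm hF hxp) ?_
    rw [rest, hyy, hyp, zero_pow (Nat.succ_ne_zero q), sub_zero, hwn, sub_ne_zero]
    exact Ne.symm hw1
  · have hrx : ⟪r, x⟫ = k ^ q := by rw [herm_conj hF x r, hxr]
    have hrxn : ⟪r, x⟫ ^ (q + 1) = n := by rw [hrx, ← pow_mul, mul_comm, pow_mul, norm_pow_q hF, hk]
    obtain ⟨e, s, hs, he, hex, hrdec', heq⟩ := exists_partner_unit hF hxx hr (by rw [hrxn]; exact hn1)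
    suffices hne : rest (q := q) x e y ≠ 0 by
      obtain ⟨d, hd, dx, de, dy⟩ := exists_unit_perp_rest hF (x := y) (y := x) (z := e) hxx he
        (herm_eq_zero_comm hF hex) hne
      refine ⟨d, hd, ?_, dx, dy⟩
      rw [hrdec', herm_add_right hF, herm_smul_right, herm_smul_right, dx, de, mul_zero, mul_zero, add_zero]
    · have hpr : ⟪y, proj q x r⟫ = k * (1 - w ^ q) := by
        rw [herm_proj_right hF, hyr, hrx, pow_q_q hF, hyx]; ring
      have hss : s ^ (q + 1) = 1 - n := by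
        have := herm_proj_self hF hxx hr
        rw [hrxn] at this
        rw [← this, show proj q x r = s • e by rw [heq, smul_smul, mul_inv_cancel₀ hs, one_smul], herm_self_smul,
          he, mul_one]
      have h1n : (1 - n) ≠ 0 := sub_ne_zero.2 (Ne.symm hn1)
      have hye : ⟪y, e⟫ ^ (q + 1) * (1 - n) = n * (1 - (2 - n * m) + w ^ (q + 1)) := by
        rw [← hpr.symm.trans hpr] at hpr
        have e1 : ⟪y, proj q x r⟫ = s ^ q * ⟪y, e⟫ := by
          conv_lhs => rw [show proj q x r = s • e by rw [heq, smul_smul, mul_inv_cancel₀ hs, one_smul]]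
          rw [herm_smul_right]
        have e2 : (s ^ q * ⟪y, e⟫) ^ (q + 1) = (k * (1 - w ^ q)) ^ (q + 1) := by rw [← e1, hpr]
        rw [mul_pow, ← pow_mul, mul_comm q, pow_mul, norm_pow_q hF, hss, mul_pow, hk] at e2
        rw [mul_comm _ (1 - n), e2, pow_succ (1 - w ^ q), sub_pow_q hF, one_pow, pow_q_q hF]
        linear_combination (-n) * hw
      intro h0
      rw [rest, hyy, hwn] at h0
      refine hw2 ?_
      linear_combination (-1 : F) * (1 - n) * h0 - hye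

/-- All four-cycles are closed. -/
theorem eqv_all (hq : 4 ≤ q) (hC : Comm D) {p r a b : Fin 4 → F} (hp : ⟪p, p⟫ = 1) (hr : ⟪r, r⟫ = 1)
    (ha : ⟪a, a⟫ = 1) (hb : ⟪b, b⟫ = 1) (hap : ⟪a, p⟫ = 0) (har : ⟪a, r⟫ = 0) (hbp : ⟪b, p⟫ = 0)
    (hbr : ⟪b, r⟫ = 0) : D.Eqv p r a b := by
  by_cases hz0 : proj q p r = 0
  · exact eqv_prop D hF (by omega) hp (by conv_lhs => rw [eq_add_proj q p r, hz0, add_zero]) ha hb hap hbp
  by_cases hN : ⟪r, p⟫ ^ (q + 1) ≠ 1
  · exact eqv_nondeg D hF hC hp hr hN ha hb hap har hbp hbr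
  rw [not_not] at hN
  set z := proj q p r with hzdef
  have hzp : ⟪z, p⟫ = 0 := proj_perp hp
  have hzz : ⟪z, z⟫ = 0 := by rw [hzdef, herm_proj_self hF hp hr, hN, sub_self]
  have hra := herm_eq_zero_comm hF har
  have hza : ⟪z, a⟫ = 0 := proj_orth hra (herm_eq_zero_comm hF hap)
  have hrdec : r = ⟪r, p⟫ • p + z := eq_add_proj q p r
  have hbz : ⟪b, z⟫ = 0 := by rw [hzdef, herm_proj_right hF, hbr, hbp, mul_zero, sub_zero]
  -- `b` lies in the plane of `a` and `z`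
  obtain ⟨l, μ, hbdec⟩ : ∃ l μ : F, b = l • a + μ • z := by
    have hW : IsNondeg q (perpIn q (perpIn q ⊤ p) a) :=
      isNondeg_perpIn hF (isNondeg_perpIn hF (isNondeg_top hF) trivial hp) (mem_perpIn.2 ⟨trivial, hap⟩) ha
    obtain ⟨h, hh, hhh, hzh⟩ := exists_partner hF hW
      (mem_perpIn.2 ⟨mem_perpIn.2 ⟨trivial, hzp⟩, hza⟩) hz0 hzz
    have hhp : ⟪h, p⟫ = 0 := (mem_perpIn.1 (mem_perpIn.1 hh).1).2
    have hha : ⟪h, a⟫ = 0 := (mem_perpIn.1 hh).2
    refine ⟨⟪b, a⟫, ⟪b, h⟫, ?_⟩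
    have hhz : ⟪h, z⟫ = 1 := by rw [herm_conj hF z h, hzh, one_pow]
    have hli : LinearIndependent F ![p, a, z, h] := by
      rw [Fintype.linearIndependent_iff]
      intro g hg
      simp only [Fin.sum_univ_four, Matrix.cons_val_zero, Matrix.cons_val_one, Matrix.cons_val] at hg
      have key : ∀ v, g 0 * ⟪p, v⟫ + g 1 * ⟪a, v⟫ + g 2 * ⟪z, v⟫ + g 3 * ⟪h, v⟫ = 0 := fun v => by
        rw [← herm_smul_left, ← herm_smul_left, ← herm_smul_left, ← herm_smul_left, ← herm_add_left, ← herm_add_left,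
          ← herm_add_left, hg, herm_zero_left]
      have g0 := key p
      have g1 := key a
      have g2 := key h
      have g3 := key z
      rw [hp, hap, hzp, hhp] at g0
      rw [herm_eq_zero_comm hF hap, ha, hza, hha] at g1
      rw [herm_eq_zero_comm hF hhp, herm_eq_zero_comm hF hha, hzh, hhh] at g2
      rw [herm_eq_zero_comm hF hzp, herm_eq_zero_comm hF hza, hzz, hhz] at g3
      simp only [mul_zero, mul_one, add_zero, zero_add] at g0 g1 g2 g3
      intro i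
      fin_cases i
      · exact g0
      · exact g1
      · exact g2
      · exact g3
    have hsub : b - ⟪b, a⟫ • a - ⟪b, h⟫ • z = 0 := by
      refine herm_nondeg hF _ fun v => ?_
      have hv : v ∈ Submodule.span F (Set.range ![p, a, z, h]) := by
        rw [hli.span_eq_top_of_card_eq_finrank' (by simp)]; trivial
      induction hv using Submodule.span_induction with
      | mem w hw =>
        obtain ⟨i, rfl⟩ := hw
        fin_cases i <;>
          simp [herm_sub_left, herm_smul_left, hbp, hap, hzp, ha, hza, hbz, hzz, herm_eq_zero_comm hF hza,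
            herm_eq_zero_comm hF hha, hzh]
      | zero => exact herm_zero_right hF _
      | add v w _ _ hv hw => rw [herm_add_right hF, hv, hw, add_zero]
      | smul c v _ hv => rw [herm_smul_right, hv, mul_zero]
    rw [sub_sub, sub_eq_zero] at hsub
    exact hsub
  by_cases h4 : q = 4 ∧ μ ^ (q + 1) = 1
  · obtain ⟨hq4, hμ⟩ := h4
    have h2 : (2 : F) = 0 := by
      subst hq4
      have h := FiniteField.cast_card_eq_zero F
      rw [hF] at h
      push_cast at h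
      exact eq_zero_of_pow_eq_zero (n := 4) (by linear_combination h)
    obtain ⟨c, hc, hc0, hc1⟩ := exists_fixed_avoid hF (by omega : 3 ≤ q)
    set b' := l • a + (μ * c) • z with hb'
    have haz := herm_eq_zero_comm hF hza
    have hl : l ^ (q + 1) = 1 := by
      rw [← hb, hbdec]
      simp only [herm_add_left, herm_add_right hF, herm_smul_left, herm_smul_right, ha, haz, hza, hzz]
      ring
    have hb'1 : ⟪b', b'⟫ = 1 := by
      simp only [hb', herm_add_left, herm_add_right hF, herm_smul_left, herm_smul_right, ha, haz, hza, hzz]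
      linear_combination hl
    have hb'p : ⟪b', p⟫ = 0 := by rw [hb', herm_add_left, herm_smul_left, herm_smul_left, hap, hzp]; ring
    have hb'r : ⟪b', r⟫ = 0 := by
      rw [hrdec, herm_add_right hF, herm_smul_right, hb'p, hb', herm_add_left, herm_smul_left, herm_smul_left,
        haz, hzz]
      ring
    have hsq : ∀ {e : F}, e ^ q = e → e ≠ 1 → e ^ (q + 1) ≠ 1 := fun {e} he hne h1 => hne (by
      rw [pow_succ, he] at h1
      have : (e - 1) * (e - 1) = 0 := by linear_combination h1 + (1 - e) * h2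
      exact sub_eq_zero.1 (mul_self_eq_zero.1 this))
    refine eqv_trans D hF hb'1 hb'p hb'r
      (eqv_tangent D hF hq hC hp hr ha hb'1 hap hrdec hzp hza hzz hz0 hb'
        (fun _ => by rw [mul_pow, hμ, one_mul]; exact hsq hc hc1))
      (eqv_tangent D hF hq hC hp hr hb'1 hb hb'p hrdec hzp ?_ hzz hz0 (l := 1) (μ := μ * (1 - c)) ?_
        (fun _ => by
          rw [mul_pow, hμ, one_mul]
          exact hsq (by rw [sub_pow_q hF, one_pow, hc]) (fun h => hc0 (by linear_combination -h))))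
    · rw [hb', herm_add_right hF, herm_smul_right, herm_smul_right, hza, hzz]; ring
    · rw [hb', hbdec]; module
  · exact eqv_tangent D hF hq hC hp hr ha hb hap hrdec hzp hza hzz hz0 hbdec fun h hμ => h4 ⟨h, hμ⟩

end Four

end CfsgLib.Phan
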