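import Mathlib
import Cfsg.Agent.Phan.Four.Contract

/-!
# Gluing homomorphisms on two point stabilisers of `SU_4(q)`, `q ≥ 4`
-/

set_option autoImplicit false

namespace CfsgLib.Phan

open Cfsg CfsgLib.Unitary

variable {F : Type*} [Field F] [Fintype F] {q : ℕ}

local notation "⟪" u ", " v "⟫" => hermForm 4 F q u v

namespace Four

open Amalgam (bh P P_norm gA_fst gB_fst gB_inter mem_gA_of mem_gB_of hull Two)

variable {G : Type*} [Group G] (D : Amalgam 4 F q G) (hF : Fintype.card F = q ^ 2)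
include hF

theorem two_of_adj {γ z : ↥(SU 4 F q) × G} (h : D.Adj γ z) : D.Two γ z := by
  obtain ⟨c, hc, cg, cz⟩ := exists_unit_perp_two hF (m := 4) le_rfl (D.P_norm γ) (D.P z)
  obtain ⟨a, -, hadj, hP⟩ := exists_adj D hF γ hc (herm_eq_zero_comm hF cg)
  exact ⟨_, hadj, triangle D hF (Adj.symm D hF hadj) h (by rw [hP]; exact cz)⟩

theorem step (hq : 4 ≤ q) (hC : Comm D) {γ y z : ↥(SU 4 F q) × G} (h : D.Two γ y) (hz : D.Adj y z) :
    D.Two γ z := by
  obtain ⟨x, hx, hxy⟩ := h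
  have oγx := Amalgam.Adj.orth D hF hx
  have oxy := Amalgam.Adj.orth D hF hxy
  have oyz := Amalgam.Adj.orth D hF hz
  by_cases hxz : ⟪D.P x, D.P z⟫ = 0
  · exact ⟨x, hx, triangle D hF hxy hz hxz⟩
  by_cases hγz : ⟪D.P γ, D.P z⟫ = 0
  · obtain ⟨a, -, hA1, hA2⟩ := exists_adj D hF γ (D.P_norm z) hγz
    obtain ⟨a', -, hB1, hB2⟩ := exists_adj D hF (γ * a * D.bh) (w := D.P y) (D.P_norm y)
      (by rw [hA2]; exact herm_eq_zero_comm hF oyz)
    have hs := eqv_all D hF hq hC (D.P_norm γ) (D.P_norm y) (D.P_norm x) (D.P_norm z)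
      (herm_eq_zero_comm hF oγx) oxy (herm_eq_zero_comm hF hγz) (herm_eq_zero_comm hF oyz)
      γ x y _ _ rfl hx rfl hxy rfl hA1 hA2 hB1 hB2
    have h1 := Amalgam.Adj.congr_right D hB1 (Amalgam.Sim.symm D hs)
    exact two_of_adj D hF (Amalgam.Adj.congr_right D hA1 (D.star (Adj.symm D hF h1) hz hA2))
  -- replace the middle point
  obtain ⟨y', hy', y'x, y'z, hrest⟩ : ∃ y', ⟪y', y'⟫ = 1 ∧ ⟪y', D.P x⟫ = 0 ∧ ⟪y', D.P z⟫ = 0 ∧
      rest (q := q) y' (D.P z) (D.P γ) ≠ 0 := by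
    set κ := 1 - ⟪D.P γ, D.P z⟫ ^ (q + 1) with hκ
    suffices hs : ∃ y', ⟪y', y'⟫ = 1 ∧ ⟪y', D.P x⟫ = 0 ∧ ⟪y', D.P z⟫ = 0 ∧ ⟪y', D.P γ⟫ ^ (q + 1) ≠ κ by
      obtain ⟨y', h1, h2, h3, h4⟩ := hs
      refine ⟨y', h1, h2, h3, fun h0 => h4 ?_⟩
      rw [rest, D.P_norm, norm_comm hF (D.P γ) y'] at h0
      rw [hκ]
      linear_combination -h0
    by_cases hN : ⟪D.P z, D.P x⟫ ^ (q + 1) ≠ 1
    · obtain ⟨e, s, hs, he, hex, hdec, -⟩ := exists_partner_unit hF (D.P_norm x) (D.P_norm z) hN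
      have hne : κ ≠ 0 ∨ ∃ v, ⟪v, D.P x⟫ = 0 ∧ ⟪v, e⟫ = 0 ∧ ⟪v, D.P γ⟫ ≠ 0 := by
        by_contra hcon
        push Not at hcon
        obtain ⟨hκ0, hv⟩ := hcon
        set g := D.P γ - ⟪D.P γ, e⟫ • e with hg
        have hge : ⟪g, e⟫ = 0 := by rw [hg, herm_sub_left, herm_smul_left, he, mul_one, sub_self]
        have hgx : ⟪g, D.P x⟫ = 0 := by rw [hg, herm_sub_left, herm_smul_left, oγx, hex, mul_zero, sub_zero]
        have h2 := hv g hgx hge
        have hNe : ⟪D.P γ, e⟫ ^ (q + 1) = 1 := by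
          rw [hg, herm_sub_left, herm_smul_left, D.P_norm, herm_conj hF (D.P γ) e, ← pow_succ', sub_eq_zero] at h2
          exact h2.symm
        have hss : ⟪D.P z, D.P x⟫ ^ (q + 1) + s ^ (q + 1) = 1 := by
          have h := D.P_norm z
          conv_lhs at h => rw [hdec]
          simp only [herm_add_left, herm_add_right hF, herm_smul_left, herm_smul_right, D.P_norm, he, hex,
            herm_eq_zero_comm hF hex, mul_one, mul_zero, add_zero, zero_add] at h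
          rw [pow_succ, pow_succ]
          linear_combination h
        have hγ1 : ⟪D.P γ, D.P z⟫ = s ^ q * ⟪D.P γ, e⟫ := by
          conv_lhs => rw [hdec]
          rw [herm_add_right hF, herm_smul_right, herm_smul_right, oγx, mul_zero, zero_add]
        have h3 : s ^ (q + 1) = 1 := by
          rw [hκ, hγ1, mul_pow, hNe, mul_one, ← pow_mul, mul_comm q, pow_mul, norm_pow_q hF, sub_eq_zero] at hκ0
          exact hκ0.symm
        rw [h3, add_eq_right] at hss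
        exact hxz (herm_eq_zero_comm hF (eq_zero_of_pow_eq_zero hss))
      obtain ⟨c, hc, cx, ce, ch⟩ := exists_unit_perp_avoid hF (by omega) (D.P_norm x) he
        (herm_eq_zero_comm hF hex) hne
      refine ⟨c, hc, cx, ?_, ch⟩
      rw [hdec, herm_add_right hF, herm_smul_right, herm_smul_right, cx, ce, mul_zero, mul_zero, add_zero]
    · rw [not_not] at hN
      set w := proj q (D.P x) (D.P z) with hw
      have hwx : ⟪w, D.P x⟫ = 0 := proj_perp (D.P_norm x)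
      have hww : ⟪w, w⟫ = 0 := by rw [hw, herm_proj_self hF (D.P_norm x) (D.P_norm z), hN, sub_self]
      have hzdec : D.P z = ⟪D.P z, D.P x⟫ • D.P x + w := eq_add_proj q _ _
      have hwz : ⟪w, D.P z⟫ = 0 := by
        conv_lhs => arg 5; rw [hzdec]
        rw [herm_add_right hF, herm_smul_right, hwx, hww, mul_zero, add_zero]
      have hyw : ⟪D.P y, w⟫ = 0 := by
        rw [hw, herm_proj_right hF, oyz, herm_eq_zero_comm hF oxy, mul_zero, sub_zero]
      have hγw : ⟪w, D.P γ⟫ ≠ 0 := fun h0 => hγz (by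
        have := herm_eq_zero_comm hF h0
        rwa [hw, herm_proj_right hF, oγx, mul_zero, sub_zero] at this)
      obtain ⟨v, hv⟩ : ∃ v : F, v ^ (q + 1) ≠ κ := by
        by_cases hκ0 : κ = 0
        · exact ⟨1, by rw [hκ0, one_pow]; exact one_ne_zero⟩
        · exact ⟨0, by rw [zero_pow (Nat.succ_ne_zero q)]; exact Ne.symm hκ0⟩
      set t := (v - ⟪D.P y, D.P γ⟫) / ⟪w, D.P γ⟫ with ht
      refine ⟨D.P y + t • w, ?_, ?_, ?_, ?_⟩
      · simp only [herm_add_left, herm_add_right hF, herm_smul_left, herm_smul_right, D.P_norm, hyw,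
          herm_eq_zero_comm hF hyw, hww, mul_zero, add_zero]
      · rw [herm_add_left, herm_smul_left, herm_eq_zero_comm hF oxy, hwx, mul_zero, add_zero]
      · rw [herm_add_left, herm_smul_left, oyz, hwz, mul_zero, add_zero]
      · rw [herm_add_left, herm_smul_left, ht, div_mul_cancel₀ _ hγw, add_sub_cancel]
        exact hv
  obtain ⟨a, -, hA1, hA2⟩ := exists_adj D hF x hy' (herm_eq_zero_comm hF y'x)
  obtain ⟨a', -, hB1, hB2⟩ := exists_adj D hF (x * a * D.bh) (w := D.P z) (D.P_norm z) (by rw [hA2]; exact y'z)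
  have hs := eqv_all D hF hq hC (D.P_norm x) (D.P_norm z) (D.P_norm y) hy'
    (herm_eq_zero_comm hF oxy) oyz y'x y'z x y z _ _ rfl hxy rfl hz rfl hA1 hA2 hB1 hB2
  have hy'z := Amalgam.Adj.congr_right D hB1 (Amalgam.Sim.symm D hs)
  obtain ⟨c, hc, cy, cz, cγ⟩ := exists_unit_perp_rest hF hy' (D.P_norm z) y'z hrest
  obtain ⟨d, -, hC1, hC2⟩ := exists_adj D hF γ hc (herm_eq_zero_comm hF cγ)
  obtain ⟨d', -, hD1, hD2⟩ := exists_adj D hF (γ * d * D.bh) (w := y') hy' (by rw [hC2]; exact cy)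
  have hs2 := eqv_all D hF hq hC (D.P_norm γ) hy' (D.P_norm x) hc (herm_eq_zero_comm hF oγx)
    (herm_eq_zero_comm hF y'x) cγ cy γ x _ _ _ rfl hx rfl hA1 hA2 hC1 hC2 hD1 hD2
  refine ⟨_, hC1, triangle D hF (Amalgam.Adj.congr_right D hD1 (Amalgam.Sim.symm D hs2)) hy'z ?_⟩
  rw [hC2]; exact cz

theorem three_gB (hq : 3 ≤ q) {g : ↥(SU 4 F q) × G} (hg : g ∈ D.gB) :
    ∃ x y, D.Adj 1 x ∧ D.Adj x y ∧ D.Adj y g := by
  have hP1 : D.P 1 = D.eL := sv_one _
  have hgo : ⟪D.e0, D.P g⟫ = 0 := by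
    conv_lhs => arg 4; rw [← mem_stab.1 (D.gB_fst hg)]
    rw [P, sv_herm, D.h0L]
  obtain ⟨c, hc, c1, c2, c3⟩ := exists_unit_perp_avoid hF hq (h := D.P g) D.h0 D.hL D.h0L (κ := 1)
    (Or.inl one_ne_zero)
  obtain ⟨d, hd, d1, d2, d3⟩ := exists_unit_perp_rest hF (x := D.P g) D.h0 hc (herm_eq_zero_comm hF c1) (by
    rw [rest, D.P_norm, herm_eq_zero_comm hF hgo, zero_pow (Nat.succ_ne_zero q), sub_zero, sub_ne_zero,
      norm_comm hF]
    exact Ne.symm c3)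
  obtain ⟨a, -, hA1, hA2⟩ := exists_adj D hF 1 hc (by rw [hP1]; exact herm_eq_zero_comm hF c2)
  obtain ⟨a', -, hB1, hB2⟩ := exists_adj D hF (1 * a * D.bh) (w := d) hd
    (by rw [hA2]; exact herm_eq_zero_comm hF d2)
  obtain ⟨a'', -, hC1, hC2⟩ := exists_adj D hF (1 * a * D.bh * a' * D.bh) (w := D.P g) (D.P_norm g)
    (by rw [hB2]; exact d3)
  have he : sv (1 : ↥(SU 4 F q) × G).1 D.e0 = D.e0 := sv_one _
  have i3 := InB.step D hF (InB.step D hF (InB.step D hF (InB.of_sim D (D.sim_refl 1)) hA1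
    (by rw [hA2, he]; exact c1)) hB1 (by rw [hB2, he]; exact d1)) hC1
    (by rw [hC2, he]; exact herm_eq_zero_comm hF hgo)
  obtain ⟨b, hb, hbs⟩ := i3
  refine ⟨_, _, hA1, hB1, Amalgam.Adj.congr_right D hC1 (Amalgam.Sim.trans D (Amalgam.Sim.symm D hbs) ?_)⟩
  show (1 * b)⁻¹ * g ∈ D.gA
  rw [one_mul]
  refine D.gB_inter (D.gB.mul_mem (D.gB.inv_mem hb) hg) ?_
  have hP : D.P (1 * b) = D.P g := (Amalgam.Sim.P_eq D hbs).trans hC2
  rw [one_mul] at hP
  rw [mem_stab, Prod.fst_mul, sv_mul, show sv g.1 D.eL = sv b.1 D.eL from hP.symm, Prod.fst_inv, sv_inv_sv]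

theorem two_hull (hq : 4 ≤ q) (hC : Comm D) {g : ↥(SU 4 F q) × G} (hg : g ∈ D.hull) :
    ∀ γ, D.Two 1 γ → D.Two 1 (γ * g) := by
  have walk : ∀ g ∈ D.gB, ∀ γ, D.Two 1 γ → D.Two 1 (γ * g) := fun g hg γ h => by
    obtain ⟨x, y, h1, h2, h3⟩ := three_gB D hF (by omega) hg
    have h1' := Amalgam.Adj.mul_left D h1 γ
    rw [mul_one] at h1'
    exact step D hF hq hC (step D hF hq hC (step D hF hq hC h h1') (Amalgam.Adj.mul_left D h2 γ))
      (Amalgam.Adj.mul_left D h3 γ)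
  rw [hull, Subgroup.sup_eq_closure] at hg
  induction hg using Subgroup.closure_induction'' with
  | mem g hg =>
    intro γ h
    rcases hg with hg | hg
    · exact Amalgam.Two.congr D h (by show γ⁻¹ * (γ * g) ∈ D.gA; rwa [inv_mul_cancel_left])
    · exact walk g hg γ h
  | inv_mem g hg =>
    intro γ h
    rcases hg with hg | hg
    · exact Amalgam.Two.congr D h (by show γ⁻¹ * (γ * g⁻¹) ∈ D.gA; rw [inv_mul_cancel_left]; exact D.gA.inv_mem hg)
    · exact walk _ (D.gB.inv_mem hg) γ h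
  | one => intro γ h; rwa [mul_one]
  | mul x y _ _ hx hy => intro γ h; rw [← mul_assoc]; exact hy _ (hx γ h)

theorem hull_inter (hq : 4 ≤ q) (hC : Comm D) {g : ↥(SU 4 F q) × G} (hg : g ∈ D.hull)
    (hL : g.1 ∈ stab D.eL) : g ∈ D.gA := by
  have hP1 : D.P 1 = D.eL := sv_one _
  obtain ⟨a, -, hadj, -⟩ := exists_adj D hF 1 (w := sv D.β D.eL) (D.βL_unit hF)
    (by rw [hP1]; exact herm_eq_zero_comm hF D.hβL)
  have h2 := two_hull D hF hq hC hg 1 ⟨_, hadj, Adj.symm D hF hadj⟩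
  rw [one_mul] at h2
  obtain ⟨x, hx1, hx2⟩ := h2
  have hs := D.star (Adj.symm D hF hx1) hx2 (by rw [hP1, P, mem_stab.1 hL])
  simpa [Amalgam.Sim] using hs

/-- The two homomorphisms extend to `SU_4`. -/
theorem exists_glue (hq : 4 ≤ q) (hC : Comm D) : ∃ f : ↥(SU 4 F q) →* G, (∀ (c : ↥(SU 4 F q)) (h : c ∈ stab D.eL), f c = D.A ⟨c, h⟩) ∧
    ∀ (c : ↥(SU 4 F q)) (h : c ∈ stab D.e0), f c = D.B ⟨c, h⟩ := by
  have hsurj : ∀ g : ↥(SU 4 F q), ∃ y, (g, y) ∈ D.hull := by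
    intro g
    obtain ⟨c, hc, c1, c2⟩ := exists_unit_perp_two hF (m := 4) le_rfl D.hL (sv g D.eL)
    obtain ⟨a, ha, -, hA2⟩ := exists_adj D hF 1 (w := c) hc
      (by rw [show D.P 1 = D.eL from sv_one _]; exact herm_eq_zero_comm hF c1)
    obtain ⟨a', ha', -, hB2⟩ := exists_adj D hF (1 * a * D.bh) (w := sv g D.eL) (by rw [sv_herm, D.hL])
      (by rw [hA2]; exact c2)
    set δ := 1 * a * D.bh * a' * D.bh with hδ
    have hmem : δ ∈ D.hull := D.hull.mul_mem (D.hull.mul_mem (D.hull.mul_mem (D.hull.mul_mem D.hull.one_mem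
      (Subgroup.mem_sup_left ha)) (Subgroup.mem_sup_right D.bh_mem)) (Subgroup.mem_sup_left ha'))
      (Subgroup.mem_sup_right D.bh_mem)
    have hst : δ.1⁻¹ * g ∈ stab D.eL := by
      rw [mem_stab, sv_mul, show sv g D.eL = sv δ.1 D.eL from hB2.symm, sv_inv_sv]
    refine ⟨δ.2 * D.A ⟨_, hst⟩, ?_⟩
    have h := D.hull.mul_mem hmem (Subgroup.mem_sup_left (D.mem_gA_of hst))
    convert h using 1
    exact Prod.ext (by simp) rfl
  choose φ hφ using hsurj
  have huniq : ∀ g y, (g, y) ∈ D.hull → y = φ g := by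
    intro g y hy
    have h := D.hull.mul_mem (D.hull.inv_mem (hφ g)) hy
    have h1 := hull_inter D hF hq hC h (by simp [mem_stab, sv_one])
    have h2 := D.gA_eq h1 D.gA.one_mem (by simp)
    have h3 := congrArg Prod.snd h2
    simp only [Prod.snd_mul, Prod.snd_inv, Prod.snd_one] at h3
    exact (inv_mul_eq_one.1 h3).symm
  exact ⟨MonoidHom.mk' φ fun g g' => (huniq _ _ (D.hull.mul_mem (hφ g) (hφ g'))).symm,
    fun c h => (huniq _ _ (Subgroup.mem_sup_left (D.mem_gA_of h))).symm,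
    fun c h => (huniq _ _ (Subgroup.mem_sup_right (D.mem_gB_of h))).symm⟩

end Four

end CfsgLib.Phan
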