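import Mathlib
import Cfsg.Agent.Phan.Four.Glue
import Cfsg.Agent.Phan.Four.Align

/-!
# `SU_(n+1)(q)` from a chain of standard pairs, `q ≥ 4`
-/

set_option autoImplicit false

namespace CfsgLib.Phan

open Cfsg CfsgLib.Unitary

variable {F : Type*} [Field F] [Fintype F] {q : ℕ} (hF : Fintype.card F = q ^ 2)
include hF

theorem range_le_of_blocks (hq : 3 ≤ q) {G : Type*} [Group G] (π : ↥(SU 3 F q) →* G) (H : Subgroup G)
    (hA : (π.comp (emb hF w01)).range ≤ H) (hB : (π.comp (emb hF w12)).range ≤ H) : π.range ≤ H := by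
  have h := blocks_generate_three hF hq (H.comap π)
    (by rintro _ ⟨x, rfl⟩; exact hA ⟨x, rfl⟩) (by rintro _ ⟨x, rfl⟩; exact hB ⟨x, rfl⟩)
  rintro _ ⟨x, rfl⟩
  exact (h ▸ Subgroup.mem_top x : x ∈ H.comap π)

/-- Two aligned pairs with commuting outer blocks extend to `SU_4`. -/
theorem exists_hom_four (hq : 4 ≤ q) {G : Type*} [Group G] (ρ ρ' : ↥(SU 3 F q) →* G)
    (he : ρ'.comp (emb hF w01) = ρ.comp (emb hF w12))
    (hc : ∀ x y, Commute (ρ (emb hF w01 x)) (ρ' (emb hF w12 y))) :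
    ∃ W : ↥(SU 4 F q) →* G, W.comp (emb hF (win 0 (show 0 + 3 ≤ 4 by omega))) = ρ ∧
      W.comp (emb hF (win 1 (show 1 + 3 ≤ 4 by omega))) = ρ' := by
  set w0 := win (m := 4) (k := 3) 0 (by omega) with hw0
  set w1 := win (m := 4) (k := 3) 1 (by omega) with hw1
  have hSA : stab (q := q) (Pi.single (3 : Fin 4) (1 : F)) ≤ (emb hF w0).range :=
    (range_win3_0 hF).ge
  have hSB : stab (q := q) (Pi.single (0 : Fin 4) (1 : F)) ≤ (emb hF w1).range :=
    (range_win3_1 hF).ge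
  have n1 : ∀ i : Fin 4, hermForm 4 F q (Pi.single i 1) (Pi.single i 1) = (1 : F) := fun i => by
    rw [herm_single_single hF, if_pos rfl]
  have n0 : ∀ i j : Fin 4, i ≠ j → hermForm 4 F q (Pi.single i 1) (Pi.single j 1) = (0 : F) := fun i j h => by
    rw [herm_single_single hF, if_neg h]
  obtain ⟨u, hu⟩ := exists_SU_map_orthonorm hF (f := ![Pi.single (1 : Fin 2) (1 : F)])
    (f' := ![Pi.single (0 : Fin 2) (1 : F)]) (orthonorm_one (by rw [herm_single_single hF, if_pos rfl]))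
    (orthonorm_one (by rw [herm_single_single hF, if_pos rfl])) (by omega)
  set wβ := win (m := 4) (k := 2) 2 (by omega) with hwβ
  have hβL : sv (emb hF wβ u) (Pi.single (3 : Fin 4) (1 : F)) = Pi.single 2 1 := by
    rw [show (3 : Fin 4) = wβ 1 from Fin.ext rfl, ← incl_mulVec_single (F := F), sv_emb_incl,
      show sv u (Pi.single (1 : Fin 2) (1 : F)) = Pi.single 0 1 from hu 0, incl_mulVec_single]
    rfl
  have hβ0 : emb hF wβ u ∈ stab (q := q) (Pi.single (0 : Fin 4) (1 : F)) :=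
    sv_emb_single_of_notMem hF _ _ ((out2_2 0).2 (Or.inl rfl))
  have hA0 : ∀ (x : ↥(SU 2 F q)) (h : emb hF (win 0 (show 0 + 2 ≤ 4 by omega)) x ∈
      stab (q := q) (Pi.single (3 : Fin 4) (1 : F))), pullHom hF w0 ρ hSA ⟨emb hF (win 0 (show 0 + 2 ≤ 4 by omega)) x, h⟩
      = ρ (emb hF w01 x) := fun x h =>
    pullHom_apply hF w0 ρ hSA (emb hF w01 x) _ _ (by rw [emb_trans, hw0, w01, win_trans])
  have hA1 : ∀ (x : ↥(SU 2 F q)) (h : emb hF (win 1 (show 1 + 2 ≤ 4 by omega)) x ∈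
      stab (q := q) (Pi.single (3 : Fin 4) (1 : F))), pullHom hF w0 ρ hSA ⟨emb hF (win 1 (show 1 + 2 ≤ 4 by omega)) x, h⟩
      = ρ (emb hF w12 x) := fun x h =>
    pullHom_apply hF w0 ρ hSA (emb hF w12 x) _ _ (by rw [emb_trans, hw0, w12, win_trans])
  have hB1 : ∀ (x : ↥(SU 2 F q)) (h : emb hF (win 1 (show 1 + 2 ≤ 4 by omega)) x ∈
      stab (q := q) (Pi.single (0 : Fin 4) (1 : F))), pullHom hF w1 ρ' hSB ⟨emb hF (win 1 (show 1 + 2 ≤ 4 by omega)) x, h⟩
      = ρ' (emb hF w01 x) := fun x h =>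
    pullHom_apply hF w1 ρ' hSB (emb hF w01 x) _ _ (by rw [emb_trans, hw1, w01, win_trans])
  have hB2 : ∀ (x : ↥(SU 2 F q)) (h : emb hF (win 2 (show 2 + 2 ≤ 4 by omega)) x ∈
      stab (q := q) (Pi.single (0 : Fin 4) (1 : F))), pullHom hF w1 ρ' hSB ⟨emb hF (win 2 (show 2 + 2 ≤ 4 by omega)) x, h⟩
      = ρ' (emb hF w12 x) := fun x h =>
    pullHom_apply hF w1 ρ' hSB (emb hF w12 x) _ _ (by rw [emb_trans, hw1, w12, win_trans])
  let D : Amalgam 4 F q G :=
    { e0 := Pi.single 0 1, eL := Pi.single 3 1, h0 := n1 _, hL := n1 _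
      h0L := n0 _ _ (by decide)
      A := pullHom hF w0 ρ hSA
      B := pullHom hF w1 ρ' hSB
      agree := fun c h1 h2 => by
        obtain ⟨x, rfl⟩ : c ∈ (emb hF (win (m := 4) (k := 2) 1 (by omega))).range := by
          rw [range_win2_1 hF]; exact ⟨h2, h1⟩
        rw [hA1 x h1, hB1 x h2]
        exact (DFunLike.congr_fun he x).symm
      β := emb hF wβ u
      hβ := hβ0
      hβL := by rw [hβL]; exact n0 _ _ (by decide)
      cond := fun c h1 hcv h2 => by
        rw [hβL] at hcv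
        obtain ⟨x, rfl⟩ : c ∈ (emb hF (win (m := 4) (k := 2) 0 (by omega))).range := by
          rw [range_win2_0 hF]; exact ⟨hcv, h1⟩
        have hcomm : Commute (emb hF (win (m := 4) (k := 2) 0 (by omega)) x) (emb hF wβ u) :=
          emb_commute hF _ _ (fun i j h => by
            have := congrArg Fin.val h; simp [hwβ] at this; omega) x u
        rw [show (⟨_, h2⟩ : ↥(stab (q := q) (Pi.single (3 : Fin 4) (1 : F)))) = ⟨_, h1⟩ from
          Subtype.ext (by
            show (emb hF wβ u)⁻¹ * _ * emb hF wβ u = _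
            rw [mul_assoc, hcomm.eq, inv_mul_cancel_left]), hA0 x h1, hB2 u hβ0]
        exact (hc x u).eq
      extra := fun h => absurd h (by omega) }
  have hC : Four.Comm D := by
    refine ⟨fun i => Pi.single i 1, fun i j => herm_single_single hF i j, rfl, rfl, ?_⟩
    intro x y hx hy x2 y1
    obtain ⟨x', rfl⟩ : x ∈ (emb hF (win (m := 4) (k := 2) 0 (by omega))).range := by
      rw [range_win2_0 hF]; exact ⟨x2, hx⟩
    obtain ⟨y', rfl⟩ : y ∈ (emb hF (win (m := 4) (k := 2) 2 (by omega))).range := by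
      rw [range_win2_2 hF]; exact ⟨hy, y1⟩
    show Commute (pullHom hF w0 ρ hSA ⟨_, hx⟩) (pullHom hF w1 ρ' hSB ⟨_, hy⟩)
    rw [hA0 x' hx, hB2 y' hy]
    exact hc x' y'
  obtain ⟨f, hfA, hfB⟩ := Four.exists_glue D hF hq hC
  refine ⟨f, MonoidHom.ext fun x => ?_, MonoidHom.ext fun x => ?_⟩
  · exact (hfA _ (sv_emb_single_of_notMem hF _ x ((out3_0 3).2 rfl))).trans
      (pullHom_apply hF w0 ρ hSA x _ _ rfl)
  · exact (hfB _ (sv_emb_single_of_notMem hF _ x ((out3_1 0).2 rfl))).trans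
      (pullHom_apply hF w1 ρ' hSB x _ _ rfl)

/-- A chain of standard pairs with commuting distant members is covered by `SU_(n+1)`. -/
theorem exists_surjective_of_pairs (hq : 4 ≤ q) {G : Type*} [Group G] (n : ℕ) (hn : 2 ≤ n) (U : ℕ → Subgroup G)
    (hU : ∀ a b, a + 2 ≤ b → b < n → ∀ x ∈ U a, ∀ y ∈ U b, x * y = y * x)
    (hpair : ∀ a, a + 2 ≤ n → ∃ π : ↥(SU 3 F q) →* G, π.ker ≤ Subgroup.center ↥(SU 3 F q) ∧
      (π.comp (emb hF w01)).range = U a ∧ (π.comp (emb hF w12)).range = U (a + 1))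
    (hgen : ∀ H : Subgroup G, (∀ a, a < n → U a ≤ H) → H = ⊤) :
    ∃ f : ↥(SU (n + 1) F q) →* G, Function.Surjective f := by
  let P : ℕ → (↥(SU 3 F q) →* G) → Prop := fun a π => a + 2 ≤ n →
    π.ker ≤ Subgroup.center ↥(SU 3 F q) ∧
      (π.comp (emb hF w01)).range = U a ∧ (π.comp (emb hF w12)).range = U (a + 1)
  have hstep : ∀ (a : ℕ) (π : {π // P a π}), ∃ π' : {π // P (a + 1) π},
      a + 3 ≤ n → π'.1.comp (emb hF w01) = π.1.comp (emb hF w12) := by
    intro a π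
    by_cases ha : a + 3 ≤ n
    · obtain ⟨k, rA, rB⟩ := π.2 (by omega)
      obtain ⟨π', k', rB', rC⟩ := hpair (a + 1) (by omega)
      obtain ⟨π'', h1, h2, h3, h4⟩ := exists_aligned hF hq π.1 π' k k' rA rB rB' rC
        (fun x hx y hy => hU a (a + 2) (by omega) (by omega) x hx y hy)
      exact ⟨⟨π'', fun _ => ⟨h1, h2, h3⟩⟩, fun _ => h4⟩
    · exact ⟨⟨π.1, fun h => absurd h (by omega)⟩, fun h => absurd h ha⟩
  choose next hnext using hstep
  obtain ⟨π0, hπ0⟩ := hpair 0 (by omega)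
  let T : ∀ a, {π // P a π} := fun a => Nat.rec (motive := fun a => {π // P a π}) ⟨π0, fun _ => hπ0⟩ next a
  have hT : ∀ a, a + 3 ≤ n → (T (a + 1)).1.comp (emb hF w01) = (T a).1.comp (emb hF w12) :=
    fun a ha => hnext a (T a) ha
  have hcU : ∀ a b, a + 2 ≤ b → b < n → ∀ x ∈ U a, ∀ y ∈ U b, Commute x y := hU
  let D : Windows hF (n + 1) G :=
    { V := fun a => (T a).1
      hW := fun a ha => exists_hom_four hF hq _ _ (hT a (by omega)) fun x y => by
        obtain ⟨-, rA, -⟩ := (T a).2 (by omega)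
        obtain ⟨-, -, rC⟩ := (T (a + 1)).2 (by omega)
        exact hcU a (a + 2) (by omega) (by omega) _ (rA ▸ ⟨x, rfl⟩) _ (rC ▸ ⟨y, rfl⟩)
      hU := fun a b hb hab x u => by
        obtain ⟨-, rA, rB⟩ := (T a).2 (by omega)
        obtain ⟨-, -, rC⟩ := (T b).2 (by omega)
        have hy : (T b).1 (emb hF (win 1 (show 1 + 2 ≤ 3 by omega)) u) ∈ U (b + 1) := rC ▸ ⟨u, rfl⟩
        set y := (T b).1 (emb hF (win 1 (show 1 + 2 ≤ 3 by omega)) u) with hydef
        have hle : (T a).1.range ≤ Subgroup.centralizer {y} := by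
          refine range_le_of_blocks hF (by omega) _ _ (fun z hz => ?_) (fun z hz => ?_) <;>
            rw [Subgroup.mem_centralizer_singleton_iff]
          · exact (hcU a (b + 1) (by omega) (by omega) z (rA ▸ hz) y hy).eq
          · exact (hcU (a + 1) (b + 1) (by omega) (by omega) z (rB ▸ hz) y hy).eq
        exact Subgroup.mem_centralizer_singleton_iff.1 (hle ⟨x, rfl⟩)
      h6 := fun h => absurd h (by omega) }
  obtain ⟨f, hf⟩ := exists_hom hF D (by omega)
  refine ⟨f, MonoidHom.range_eq_top.1 (hgen _ fun a ha => ?_)⟩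
  by_cases h : a + 2 ≤ n
  · obtain ⟨-, rA, -⟩ := (T a).2 h
    rw [← rA]
    rintro _ ⟨x, rfl⟩
    exact ⟨_, hf a (by omega) (emb hF w01 x)⟩
  · obtain ⟨b, rfl⟩ : ∃ b, a = b + 1 := ⟨a - 1, by omega⟩
    obtain ⟨-, -, rB⟩ := (T b).2 (by omega)
    rw [← rB]
    rintro _ ⟨x, rfl⟩
    exact ⟨_, hf b (by omega) (emb hF w12 x)⟩

end CfsgLib.Phan
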