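import Mathlib
import Cfsg.Agent.Phan.Four.Blocks

/-!
# Two copies of `SU_2(q)` with commuting tori generating `SU_3(q)` form a standard pair
-/

set_option autoImplicit false

namespace CfsgLib.Phan

open Cfsg CfsgLib.Unitary

variable {F : Type*} [Field F] [Fintype F] {q : ℕ} (hF : Fintype.card F = q ^ 2)
include hF

theorem exists_standard_hom (hq : 4 ≤ q) {G : Type*} [Group G] {A B : Subgroup G}
    (eA : ↥(SU 2 F q) ≃* ↥A) (eB : ↥(SU 2 F q) ≃* ↥B) (θ : ↥(A ⊔ B) ≃* ↥(SU 3 F q))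
    {a b : G} (haA : a ∈ A) (hbB : b ∈ B) (ha : orderOf a = q + 1) (hb : orderOf b = q + 1)
    (hab : a * b = b * a) :
    ∃ π : ↥(SU 3 F q) →* G, π.ker ≤ Subgroup.center ↥(SU 3 F q) ∧
      (π.comp (emb hF w01)).range = A ∧ (π.comp (emb hF w12)).range = B := by
  classical
  let jA : ↥(SU 2 F q) →* ↥(SU 3 F q) :=
    θ.toMonoidHom.comp ((Subgroup.inclusion le_sup_left).comp eA.toMonoidHom)
  let jB : ↥(SU 2 F q) →* ↥(SU 3 F q) :=
    θ.toMonoidHom.comp ((Subgroup.inclusion le_sup_right).comp eB.toMonoidHom)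
  have hA : Function.Injective jA := θ.injective.comp ((Subgroup.inclusion_injective (le_sup_left : A ≤ A ⊔ B)).comp eA.injective)
  have hB : Function.Injective jB := θ.injective.comp ((Subgroup.inclusion_injective (le_sup_right : B ≤ A ⊔ B)).comp eB.injective)
  obtain ⟨x, hx, hxA⟩ := exists_stab_eq hF hq jA hA
  obtain ⟨y, hy, hyB⟩ := exists_stab_eq hF hq jB hB
  let π₀ : ↥(SU 3 F q) →* G := (A ⊔ B).subtype.comp θ.symm.toMonoidHom
  have hπ₀ : Function.Injective π₀ := (A ⊔ B).subtype_injective.comp θ.symm.injective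
  have hπA : jA.range.map π₀ = A := by
    rw [MonoidHom.map_range]
    ext g
    refine ⟨?_, fun hg => ⟨eA.symm ⟨g, hg⟩, ?_⟩⟩
    · rintro ⟨u, rfl⟩
      show ((θ.symm (θ _) : ↥(A ⊔ B)) : G) ∈ A
      rw [θ.symm_apply_apply]; exact (eA u).2
    · show ((θ.symm (θ _) : ↥(A ⊔ B)) : G) = g
      rw [θ.symm_apply_apply]
      show ((eA (eA.symm ⟨g, hg⟩)) : G) = g
      rw [eA.apply_symm_apply]
  have hπB : jB.range.map π₀ = B := by
    rw [MonoidHom.map_range]
    ext g
    refine ⟨?_, fun hg => ⟨eB.symm ⟨g, hg⟩, ?_⟩⟩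
    · rintro ⟨u, rfl⟩
      show ((θ.symm (θ _) : ↥(A ⊔ B)) : G) ∈ B
      rw [θ.symm_apply_apply]; exact (eB u).2
    · show ((θ.symm (θ _) : ↥(A ⊔ B)) : G) = g
      rw [θ.symm_apply_apply]
      show ((eB (eB.symm ⟨g, hg⟩)) : G) = g
      rw [eB.apply_symm_apply]
  obtain ⟨d, hd, hda⟩ : ∃ d ∈ jA.range, π₀ d = a := by rw [← hπA] at haA; exact haA
  obtain ⟨e, he, heb⟩ : ∃ e ∈ jB.range, π₀ e = b := by rw [← hπB] at hbB; exact hbB
  rw [hxA] at hd
  rw [hyB] at he
  have hod : orderOf d = q + 1 := by rw [← orderOf_injective π₀ hπ₀ d, hda, ha]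
  have hoe : orderOf e = q + 1 := by rw [← orderOf_injective π₀ hπ₀ e, heb, hb]
  have hde : d * e = e * d := hπ₀ (by rw [map_mul, map_mul, hda, heb, hab])
  obtain ⟨κ, hκ⟩ := fixed_prop hF (by omega) hy he hoe (v := sv d y) (by
    rw [← sv_mul, ← hde, sv_mul, mem_stab.1 he])
  have hxy : hermForm 3 F q x y = 0 := by
    by_cases hκ1 : κ = 1
    · -- the two stabilisers would coincide
      exfalso
      rw [hκ1, one_smul] at hκ
      obtain ⟨c, hc⟩ := fixed_prop hF (by omega) hx hd hod hκ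
      have hc0 : c ≠ 0 := fun h => by
        rw [hc, h, zero_smul, herm_zero_left] at hy; exact zero_ne_one hy
      have hst : stab (q := q) y = stab (q := q) x := by rw [hc, stab_smul hF x hc0]
      have hAB : A = B := by rw [← hπA, ← hπB, hxA, hyB, hst]
      have htop : stab (q := q) x = ⊤ := by
        rw [← hxA, MonoidHom.range_eq_top]
        intro z
        have hz : (θ.symm z).1 ∈ A := (sup_le le_rfl hAB.ge : A ⊔ B ≤ A) (θ.symm z).2
        refine ⟨eA.symm ⟨_, hz⟩, ?_⟩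
        show θ (Subgroup.inclusion le_sup_left (eA (eA.symm ⟨_, hz⟩))) = z
        rw [eA.apply_symm_apply]
        conv_rhs => rw [← θ.apply_symm_apply z]
        rfl
      obtain ⟨w, -, hw, hw'⟩ := exists_orthonorm_next hF (isNondeg_top hF) (orthonorm_one hx) (fun _ => trivial)
        (by simp)
      obtain ⟨g, hg⟩ := exists_SU_map_orthonorm hF (f := ![x]) (f' := ![w]) (orthonorm_one hx) (orthonorm_one hw)
        (by omega)
      have h1 : sv g x = x := mem_stab.1 (htop ▸ Subgroup.mem_top g)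
      have h2 : hermForm 3 F q w x = 0 := hw' 0
      rw [show w = x from (hg 0).symm.trans h1, hx] at h2
      exact one_ne_zero h2
    · have h := sv_herm d x y
      rw [mem_stab.1 hd, hκ, herm_smul_right] at h
      have h' : (κ ^ q - 1) * hermForm 3 F q x y = 0 := by linear_combination h
      refine (mul_eq_zero.1 h').resolve_left fun h0 => hκ1 ?_
      rw [← pow_q_q hF κ, sub_eq_zero.1 h0, one_pow]
  obtain ⟨s, hs⟩ := exists_SU_map_orthonorm hF (f := ![Pi.single (2 : Fin 3) (1 : F), Pi.single 0 1]) (f' := ![x, y])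
    (orthonorm_two hF (by rw [herm_single_single hF, if_pos rfl]) (by rw [herm_single_single hF, if_pos rfl])
      (by rw [herm_single_single hF, if_neg (by decide)]))
    (orthonorm_two hF hx hy hxy) (by omega)
  refine ⟨π₀.comp (MulAut.conj s).toMonoidHom, ?_, ?_, ?_⟩
  · rw [(MonoidHom.ker_eq_bot_iff (π₀.comp (MulAut.conj s).toMonoidHom)).2 (hπ₀.comp (MulAut.conj s).injective)]; exact bot_le
  · rw [MonoidHom.range_comp, range_w01 hF, ← Subgroup.map_map, map_conj_stab hF, show sv s (Pi.single (2 : Fin 3) (1 : F)) = x from hs 0,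
      ← hxA, hπA]
  · rw [MonoidHom.range_comp, range_w12 hF, ← Subgroup.map_map, map_conj_stab hF, show sv s (Pi.single (0 : Fin 3) (1 : F)) = y from hs 1,
      ← hyB, hπB]

end CfsgLib.Phan
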